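import Cfsg.Agent.H36.O84Spec

/-! Tower O84, slot U5a. -/

set_option autoImplicit false

namespace H59.O84U5a

open H36.O84 Matrix Subgroup

universe u

theorem act_mul {Γ : Type*} [Group Γ] {τ : Multiplicative V →* Γ} {g h : Γ} {M N : M4}
    (a : Act τ g M) (b : Act τ h N) : Act τ (g * h) (M * N) := fun v => by
  rw [← mulVec_mulVec, ← a, ← b]
  group

theorem jobU5a : JobU5a.{u} := by
  intro Γ _ _ S Om _ M U N H ⟨e⟩
  let φ : Om →* Γ := H.subtype.comp e.symm.toMonoidHom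
  have hφ : Function.Injective φ := H.subtype_injective.comp e.symm.injective
  obtain ⟨g, hg⟩ := U (M.T0.map φ) (by
    rintro _ ⟨x, hx, rfl⟩ _ ⟨y, hy, rfl⟩
    rw [← map_mul, ← map_mul, M.tcomm x hx y hy]) (by rw [card_map_of_injective hφ, M.tcard])
  let ψ : Om →* Γ := (MulAut.conj g).toMonoidHom.comp φ
  have hψ : Function.Injective ψ := (MulAut.conj g).injective.comp hφ
  have hT : M.T0.map ψ = S.T := (Subgroup.map_map _ _ _).symm.trans hg
  have hH : cS g H = (⊤ : Subgroup Om).map ψ := by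
    rw [← Subgroup.map_map]
    congr 1
    ext x
    constructor
    · intro hx
      exact ⟨e ⟨x, hx⟩, mem_top _, by simp [φ]⟩
    · rintro ⟨y, -, rfl⟩
      exact (e.symm y).2
  have key : ∀ i, ∃ l, (M.A i).map ψ = S.K l ∧ Act S.τ (ψ (M.s i)) (r l) ∧
      ∀ a : V, S.τ (Multiplicative.ofAdd a) ∈ (M.Ti i).map ψ ↔ χ l ⬝ᵥ a = 0 := fun i => by
    refine N _ _ (ψ (M.c i)) _ ?_ ?_ ?_ (mem_map_of_mem ψ (M.cA i)) ?_ ?_ ?_ ?_ ?_
      (mem_map_of_mem ψ (M.sA i)) ?_
    · rw [card_map_of_injective hψ]; exact M.acard i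
    · rw [← map_commutator, M.aperf i]
    · rw [← hT]; exact mem_map_of_mem ψ (M.cT i)
    · exact fun h => M.c1 i (hψ (h.trans (map_one ψ).symm))
    · refine (map_mono (M.ancl i)).trans ?_
      rw [MonoidHom.map_closure]
      refine closure_mono ?_
      rintro _ ⟨_, ⟨x, hx, rfl⟩, rfl⟩
      exact ⟨ψ x, mem_map_of_mem ψ hx, by rw [map_mul, map_mul, map_inv]⟩
    · rw [← hT]; exact map_mono (M.tle i)
    · rw [card_map_of_injective hψ]; exact M.ticard i
    · rintro _ ⟨x, hx, rfl⟩ _ ⟨y, hy, rfl⟩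
      rw [← map_mul, ← map_mul, M.acen i x hx y hy]
    · rw [← map_inv, ← map_mul, ← map_mul, M.sc i, map_inv]
  choose q hA hs hB using key
  have hτ : ∀ a : V, ∃ t ∈ M.T0, ψ t = S.τ (Multiplicative.ofAdd a) := fun a => by
    have : S.τ (Multiplicative.ofAdd a) ∈ M.T0.map ψ := by rw [hT]; exact ⟨_, rfl⟩
    exact this
  have uniq : ∀ (x y : Om) (A B : M4), Act S.τ (ψ x) A → Act S.τ (ψ y) B →
      (∀ t ∈ M.T0, x * t * x⁻¹ = y * t * y⁻¹) → A = B := fun x y A B h1 h2 h => by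
    have : ∀ a : V, A *ᵥ a = B *ᵥ a := fun a => by
      obtain ⟨t, ht, e⟩ := hτ a
      have h3 := congrArg ψ (h t ht)
      simp only [map_mul, map_inv] at h3
      rw [e, h1, h2] at h3
      exact Multiplicative.ofAdd.injective (S.inj h3)
    ext i j
    have := congrFun (this (Pi.single j 1)) i
    simpa using this
  refine ⟨g, q, ⟨fun k hk => ?_, fun j k hj hk => ?_, fun a ha => ?_⟩, ?_, ?_, ?_⟩
  · refine uniq _ _ _ _ ?_ ?_ (M.braid k hk)
    · rw [map_mul, map_mul]; exact act_mul (act_mul (hs 0) (hs k)) (hs 0)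
    · rw [map_mul, map_mul]; exact act_mul (act_mul (hs k) (hs 0)) (hs k)
  · refine uniq _ _ _ _ ?_ ?_ (M.comm j k hj hk)
    · rw [map_mul]; exact act_mul (hs j) (hs k)
    · rw [map_mul]; exact act_mul (hs k) (hs j)
  · obtain ⟨t, -, e⟩ := hτ a
    have h1 : t = 1 := M.inter t fun i => by
      have := (hB i a).2 (ha i)
      rw [← e] at this
      exact (mem_map_iff_mem hψ).1 this
    rw [h1, map_one, ← map_one S.τ] at e
    exact (Multiplicative.ofAdd.injective (S.inj e)).symm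
  · rw [hH, ← M.gen, Subgroup.map_iSup]
    exact iSup_congr hA
  · rw [hH, ← hT]; exact map_mono le_top
  · have : normalizer (S.T : Set Γ) ⊓ cS g H = (normalizer (M.T0 : Set Om)).map ψ := by
      rw [hH, ← hT]
      refine le_antisymm ?_ (le_inf (le_normalizer_map ψ) (map_mono le_top))
      rintro _ ⟨h1, y, -, rfl⟩
      refine mem_map_of_mem ψ (mem_normalizer_iff.2 fun h => ?_)
      have := mem_normalizer_iff.1 h1 (ψ h)
      rwa [← map_inv, ← map_mul, ← map_mul, mem_map_iff_mem hψ, mem_map_iff_mem hψ] at this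
    rw [this, card_map_of_injective hψ, M.ncard]

end H59.O84U5a
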