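import Cfsg.Agent.H52.SimXSSpec

/-! S3694, chapter XS: the determinant job. -/

set_option autoImplicit false

namespace H59.SimXSDet

open Matrix Polynomial

theorem cube {R n : Type} [CommRing R] [Fintype n] [DecidableEq n] (hn : Fintype.card n = 9)
    (w t : R) (B Y Z : Matrix n n R)
    (h2 : (2 : R) = 0) (hw : w ^ 2 + w + 1 = 0) (hB : B * B * B = 1) (hYZ : Y * Z = 1)
    (hc : Y * B * Z = w • B) :
    (det (1 + (t - 1) • (1 + B + B * B))) ^ 3 = t ^ 9 := by
  have hZY : Z * Y = 1 := mul_eq_one_comm.mp hYZ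
  have hB' : B * (B * B) = 1 := by rw [← mul_assoc]; exact hB
  have hB4 : B * B * (B * B) = B := by rw [← mul_assoc, hB, one_mul]
  obtain ⟨e, he⟩ : ∃ e : R → Matrix n n R,
      ∀ c, e c = 1 + c • B + (c ^ 2) • (B * B) := ⟨_, fun _ => rfl⟩
  have hBB : Y * (B * B) * Z = (w ^ 2) • (B * B) := by
    calc Y * (B * B) * Z = Y * B * (Z * Y) * B * Z := by rw [hZY]; simp only [mul_assoc, mul_one]
      _ = (Y * B * Z) * (Y * B * Z) := by simp only [mul_assoc]
      _ = _ := by rw [hc, smul_mul_smul_comm, sq]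
  have hconj : ∀ c, Y * (1 + (t - 1) • e c) * Z = 1 + (t - 1) • e (c * w) := by
    intro c
    simp only [he, mul_add, add_mul, mul_one, Matrix.mul_smul, Matrix.smul_mul, hYZ, hc, hBB,
      smul_smul, mul_pow]
  have hdet : ∀ c, det (1 + (t - 1) • e (c * w)) = det (1 + (t - 1) • e c) := by
    intro c
    rw [← hconj, det_mul, det_mul, mul_right_comm, ← det_mul, hYZ, det_one, one_mul]
  have hmul : ∀ c d, e c * e d = (1 + c * d ^ 2 + c ^ 2 * d) • (1 : Matrix n n R) +
      (d + c + c ^ 2 * d ^ 2) • B + (d ^ 2 + c * d + c ^ 2) • (B * B) := by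
    intro c d
    simp only [he, mul_add, add_mul, mul_one, one_mul, Matrix.mul_smul, Matrix.smul_mul, hB, hB',
      hB4]
    module
  have h01 : e 1 * e (1 * w) = 0 := by
    rw [hmul]
    rw [show 1 + 1 * (1 * w) ^ 2 + 1 ^ 2 * (1 * w) = 0 by linear_combination hw,
      show 1 * w + 1 + 1 ^ 2 * (1 * w) ^ 2 = 0 by linear_combination hw,
      show (1 * w) ^ 2 + 1 * (1 * w) + 1 ^ 2 = 0 by linear_combination hw]
    simp
  have h02 : e 1 * e (1 * w * w) = 0 := by
    rw [hmul]
    rw [show 1 + 1 * (1 * w * w) ^ 2 + 1 ^ 2 * (1 * w * w) = 0 by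
        linear_combination (w ^ 2 - w + 1) * hw,
      show 1 * w * w + 1 + 1 ^ 2 * (1 * w * w) ^ 2 = 0 by linear_combination (w ^ 2 - w + 1) * hw,
      show (1 * w * w) ^ 2 + 1 * (1 * w * w) + 1 ^ 2 = 0 by
        linear_combination (w ^ 2 - w + 1) * hw]
    simp
  have h12 : e (1 * w) * e (1 * w * w) = 0 := by
    rw [hmul]
    rw [show 1 + (1 * w) * (1 * w * w) ^ 2 + (1 * w) ^ 2 * (1 * w * w) = 0 by
        linear_combination (w ^ 3 - w + 1) * hw,
      show 1 * w * w + 1 * w + (1 * w) ^ 2 * (1 * w * w) ^ 2 = 0 by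
        linear_combination (w ^ 4 - w ^ 3 + w) * hw,
      show (1 * w * w) ^ 2 + (1 * w) * (1 * w * w) + (1 * w) ^ 2 = 0 by
        linear_combination (w ^ 2) * hw]
    simp
  have hsum : e 1 + e (1 * w) + e (1 * w * w) = 1 := by
    have : e 1 + e (1 * w) + e (1 * w * w) = (1 + 2 : R) • (1 : Matrix n n R) +
        (w ^ 2 + w + 1) • B + ((w ^ 2 - w + 1) * (w ^ 2 + w + 1)) • (B * B) := by
      simp only [he]
      module
    rw [this, h2, hw]
    simp
  have hprod : (1 + (t - 1) • e 1) * (1 + (t - 1) • e (1 * w)) * (1 + (t - 1) • e (1 * w * w)) =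
      t • (1 : Matrix n n R) := by
    generalize e 1 = e0 at h01 h02 hsum
    generalize e (1 * w) = e1 at h01 h12 hsum
    generalize e (1 * w * w) = e2 at h02 h12 hsum
    have h1 : (1 + (t - 1) • e0) * (1 + (t - 1) • e1) = 1 + (t - 1) • e0 + (t - 1) • e1 := by
      simp only [mul_add, add_mul, mul_one, one_mul, Matrix.mul_smul, Matrix.smul_mul, h01,
        smul_zero, add_zero]
    rw [h1]
    simp only [mul_add, add_mul, mul_one, one_mul, Matrix.mul_smul, Matrix.smul_mul, h02, h12,
      smul_zero, add_zero]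
    rw [add_assoc, add_assoc, ← smul_add, ← smul_add, ← add_assoc e0, hsum]
    module
  have hd := congrArg det hprod
  rw [det_mul, det_mul, hdet (1 * w), hdet 1, det_smul, det_one, mul_one, hn] at hd
  have he1 : e 1 = 1 + B + B * B := by rw [he]; simp
  rw [he1] at hd
  rw [← hd]
  ring

theorem ev {F n : Type} [CommRing F] [Fintype n] [DecidableEq n] (a : F) (M : Matrix n n F) :
    eval a (det (1 + ((X : F[X]) - 1) • (C : F →+* F[X]).mapMatrix M)) =
      det (1 + (a - 1) • M) := by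
  have h1 := RingHom.map_det (evalRingHom a) (1 + ((X : F[X]) - 1) • (C : F →+* F[X]).mapMatrix M)
  rw [coe_evalRingHom] at h1
  have h2 : (evalRingHom a).mapMatrix (1 + ((X : F[X]) - 1) • (C : F →+* F[X]).mapMatrix M) =
      1 + (a - 1) • M := by
    ext i j
    by_cases hij : i = j
    · subst hij; simp
    · simp [Matrix.one_apply_ne hij]
  rw [h1, h2]

theorem main {F n : Type} [Field F] [Fintype F] [Fintype n] [DecidableEq n]
    (hn : Fintype.card n = 9) (w : F) (b y : GL n F) (hF : Fintype.card F = 4)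
    (hw : w ^ 2 + w + 1 = 0) (hb : b ^ 3 = 1)
    (hy : ((y * b * y⁻¹ : GL n F) : Matrix n n F) = w • (b : Matrix n n F)) :
    det (1 + w ^ 2 • (1 + (b : Matrix n n F) + (b : Matrix n n F) * (b : Matrix n n F)) :
      Matrix n n F) = 1 := by
  have h2 : (2 : F) = 0 := by
    have h4 : ((Fintype.card F : ℕ) : F) = 0 := FiniteField.cast_card_eq_zero F
    rw [hF] at h4
    have : (2 : F) ^ 2 = 0 := by
      rw [← h4]; norm_num
    exact pow_eq_zero_iff (two_ne_zero) |>.mp this
  set B : Matrix n n F := (b : Matrix n n F) with hBdef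
  have hB : B * B * B = 1 := by
    have := congrArg (fun g : GL n F => (g : Matrix n n F)) hb
    simpa [pow_succ, hBdef] using this
  let φ : Matrix n n F →+* Matrix n n F[X] := (C : F →+* F[X]).mapMatrix
  have hφs : ∀ (c : F) (M : Matrix n n F), φ (c • M) = (C c : F[X]) • φ M := by
    intro c M
    ext i j
    simp [φ]
  have hcube := cube (R := F[X]) hn (C w) X (φ B) (φ (y : Matrix n n F))
    (φ ((y⁻¹ : GL n F) : Matrix n n F))
    (by rw [← map_ofNat (C : F →+* F[X]) 2, h2, map_zero])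
    (by rw [← map_pow, ← map_one (C : F →+* F[X]), ← map_add, ← map_add, hw, map_zero])
    (by rw [← map_mul, ← map_mul, hB, map_one])
    (by rw [← map_mul, Units.mul_inv, map_one])
    (by rw [← map_mul, ← map_mul, ← hφs, ← hy]; rfl)
  set D : F[X] := det (1 + ((X : F[X]) - 1) • (1 + φ B + φ B * φ B)) with hD
  have hev : ∀ a : F, eval a D = det (1 + (a - 1) • (1 + B + B * B)) := by
    intro a
    have h3 : (1 + φ B + φ B * φ B) = φ (1 + B + B * B) := by simp
    rw [hD, h3]
    exact ev a _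
  have h1 : eval 1 D = 1 := by rw [hev]; simp
  have hw' : (C w : F[X]) ^ 2 + C w + 1 = 0 := by
    rw [← map_pow, ← map_one (C : F →+* F[X]), ← map_add, ← map_add, hw, map_zero]
  have hfac : (D - X ^ 3) * (D - C w * X ^ 3) * (D - C w ^ 2 * X ^ 3) = 0 := by
    linear_combination hcube + (-D ^ 2 * X ^ 3 + C w * D * X ^ 6 - (C w - 1) * X ^ 9) * hw'
  have hw3 : w ^ 3 = 1 := by linear_combination (w - 1) * hw
  have hgoal : eval w D = 1 := by
    rcases mul_eq_zero.mp hfac with h | h
    · rcases mul_eq_zero.mp h with h | h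
      · rw [sub_eq_zero.mp h]; simpa using hw3
      · rw [sub_eq_zero.mp h] at h1 ⊢
        simp only [eval_mul, eval_C, eval_pow, eval_X, one_pow, mul_one] at h1 ⊢
        rw [hw3, h1, one_mul]
    · rw [sub_eq_zero.mp h] at h1 ⊢
      simp only [eval_mul, eval_C, eval_pow, eval_X, one_pow, mul_one] at h1 ⊢
      rw [hw3, h1, one_mul]
  rw [hev] at hgoal
  rw [show w ^ 2 = w - 1 by linear_combination hw - w * h2]
  exact hgoal

theorem job : H52.XS.JobDet := fun _ _ _ w b y hF hw hb hy =>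
  main (Fintype.card_fin 9) w b y hF hw hb hy

end H59.SimXSDet
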