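import Cfsg.Agent.H53.SimXASpec

/-! S3694, chapter XA: a unipotent element of the special group. -/

set_option autoImplicit false

namespace H59.SimXAUni

open Subgroup Cfsg H98 Matrix H0.Sim H53.XA

theorem key {b : ℕ} {F : Type} [Field F] (v : Matrix (Fin b) (Fin 1) F)
    (r : Matrix (Fin 1) (Fin b) F) (hrv : r * v = 0) (hne : v * r ≠ 0) :
    ∃ w : GL (Fin b) F, (w : Mt b F) = 1 + v * r ∧
      w ∈ (Matrix.GeneralLinearGroup.det : GL (Fin b) F →* Fˣ).ker ∧ w ≠ 1 ∧
      w ^ ringChar F = 1 := by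
  have hNN : v * r * (v * r) = 0 := by
    rw [Matrix.mul_assoc, ← Matrix.mul_assoc r, hrv, Matrix.zero_mul, Matrix.mul_zero]
  refine ⟨⟨1 + v * r, 1 - v * r, ?_, ?_⟩, rfl, ?_, ?_, ?_⟩
  · rw [add_mul, mul_sub, mul_sub, hNN]; simp
  · rw [sub_mul, mul_add, mul_add, hNN]; simp
  · rw [MonoidHom.mem_ker]
    apply Units.ext
    change Matrix.det (1 + v * r) = 1
    rw [det_one_add_mul_comm, hrv, add_zero, det_one]
  · intro h
    have := congrArg (fun g : GL (Fin b) F => (g : Mt b F)) h
    exact hne (by simpa using this)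
  · apply Units.ext
    rw [Units.val_pow_eq_pow_val]
    change (1 + v * r) ^ ringChar F = 1
    have hk : ∀ k : ℕ, (1 + v * r) ^ k = 1 + (k : F) • (v * r) := by
      intro k
      induction k with
      | zero => simp
      | succ k ih =>
        rw [pow_succ, ih, add_mul, mul_add, mul_add, Matrix.smul_mul, Matrix.smul_mul, hNN]
        simp only [one_mul, mul_one, smul_zero, add_zero, Nat.cast_succ, add_smul, one_smul]
        abel
    rw [hk, ringChar.Nat.cast_ringChar, zero_smul, add_zero]

theorem job : H53.XA.UNI := by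
  intro b F _ _ u q hF hb
  obtain ⟨b, rfl⟩ : ∃ c, b = c + 2 := ⟨b - 2, by omega⟩
  cases u with
  | false =>
    obtain ⟨w, -, h2, h3, h4⟩ := key (b := b + 2) (F := F)
      (Matrix.of fun i _ => (Matrix.vecCons 1 (Matrix.vecCons 0 0) : Fin (b + 2) → F) i)
      (Matrix.of fun _ i => (Matrix.vecCons 0 (Matrix.vecCons 1 0) : Fin (b + 2) → F) i)
      (by ext i j; simp [Matrix.mul_apply, Fin.sum_univ_succ])
      (by
        intro h
        have := congrFun (congrFun h 0) 1
        simp [Matrix.mul_apply] at this)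
    exact ⟨w, ⟨by simp [Gam], h2⟩, h3, h4⟩
  | true =>
    have hF' : Fintype.card F = q ^ 2 := hF
    have hq := H59.two_le_q hF'
    obtain ⟨l, hl0, hl⟩ := H59.exists_trace_zero_ne_zero (H59.frob_ne_id hF') (H59.frob_frob hF')
    obtain ⟨a, ha⟩ := H59.exists_norm_eq hF' (μ := -1) (by
      have := (H59.frob hF').map_neg 1
      rw [map_one] at this
      exact this)
    have hlq : l ^ q = -l := by
      rw [H59.frob_apply] at hl
      linear_combination hl
    set v : Matrix (Fin (b + 2)) (Fin 1) F :=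
      Matrix.of fun i _ => (Matrix.vecCons 1 (Matrix.vecCons a 0) : Fin (b + 2) → F) i with hv
    have hvv : ad q v * v = 0 := by
      ext i j
      simp [hv, Matrix.mul_apply, Fin.sum_univ_succ]
      rw [← pow_succ, ha]; ring
    have hrv : (l • ad q v) * v = 0 := by rw [Matrix.smul_mul, hvv, smul_zero]
    obtain ⟨w, h1, h2, h3, h4⟩ := key v (l • ad q v) hrv (by
      intro h
      have := congrFun (congrFun h 0) 0
      simp [hv, Matrix.mul_apply] at this
      exact hl0 this)
    refine ⟨w, ⟨(mem_gu hF').2 ?_, h2⟩, h3, h4⟩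
    have hNN : v * ad q v * (v * ad q v) = 0 := by
      rw [Matrix.mul_assoc, ← Matrix.mul_assoc (ad q v), hvv, Matrix.zero_mul, Matrix.mul_zero]
    rw [h1, ad_add hF', ad_one hF', Matrix.mul_smul, ad_smul hF', ad_mul hF', ad_ad hF', hlq]
    simp only [add_mul, mul_add, one_mul, mul_one, Matrix.smul_mul, Matrix.mul_smul, hNN,
      smul_zero, add_zero]
    module

end H59.SimXAUni
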