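/- Orbits of the general linear group on quadratic forms in characteristic two. -/
import Cfsg.Agent.Base
import Cfsg.Agent.H57.Transv

set_option autoImplicit false

namespace H59

open Module

theorem card_le_mul_of_fibre {α β T : Type*} [Finite α] [Finite β] [Finite T] (f : α → β)
    (h : ∀ a, ∃ g : α → T, ∀ x y, f x = f a → f y = f a → g x = g y → x = y) :
    Nat.card α ≤ Nat.card T * Nat.card β := by
  classical
  have := Fintype.ofFinite α
  have := Fintype.ofFinite β
  have := Fintype.ofFinite T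
  rw [Nat.card_eq_fintype_card, Nat.card_eq_fintype_card, Nat.card_eq_fintype_card]
  refine Finset.card_le_mul_card_image_of_maps_to (f := f) (fun _ _ => Finset.mem_univ _) _
    fun b _ => ?_
  rcases Finset.eq_empty_or_nonempty {a ∈ Finset.univ | f a = b} with h0 | ⟨a, ha⟩
  · simp [h0]
  obtain ⟨g, hg⟩ := h a
  simp only [Finset.mem_filter, Finset.mem_univ, true_and] at ha
  refine Finset.card_le_card_of_injOn g (fun _ _ => Finset.mem_univ _) fun x hx y hy hxy => ?_
  simp only [Finset.coe_filter, Finset.mem_univ, true_and, Set.mem_ofPred_eq] at hx hy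
  exact hg x y (hx.trans ha.symm) (hy.trans ha.symm) hxy

variable {F : Type*} [Field F] {U : Type*} [AddCommGroup U] [Module F U]

theorem exists_dual_pair {θ₁ θ₂ : Dual F U} (h : LinearIndependent F ![θ₁, θ₂]) :
    ∃ u w, θ₁ u = 1 ∧ θ₂ u = 0 ∧ θ₁ w = 0 ∧ θ₂ w = 1 := by
  have key : ∀ {a b : Dual F U}, LinearIndependent F ![a, b] → ∃ u, a u = 1 ∧ b u = 0 := by
    intro a b hab
    by_contra! hc
    have h1 : a ∈ Submodule.span F (Set.range fun _ : Unit => b) :=
      mem_span_of_iInf_ker_le_ker fun x hx => by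
        simp only [Submodule.mem_iInf, LinearMap.mem_ker, forall_const] at hx ⊢
        by_contra h0
        exact hc ((a x)⁻¹ • x) (by simp [h0]) (by simp [hx])
    rw [Set.range_const, Submodule.mem_span_singleton] at h1
    obtain ⟨c, rfl⟩ := h1
    simpa using (LinearIndependent.pair_iff.1 hab 1 (-c) (by simp)).1
  obtain ⟨u, hu⟩ := key h
  obtain ⟨w, hw⟩ := key (LinearIndependent.pair_symm_iff.1 h)
  exact ⟨u, w, hu.1, hu.2, hw.2, hw.1⟩

theorem binary_fibre (h2 : (2 : F) = 0) {α γ : F} {θ₁ θ₂ η₁ η₂ : Dual F U} {u w : U}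
    (h1 : θ₁ u = 1) (h3 : θ₂ u = 0) (h4 : θ₁ w = 0) (h5 : θ₂ w = 1)
    (h : ∀ z, α * η₁ z ^ 2 + η₁ z * η₂ z + γ * η₂ z ^ 2 = α * θ₁ z ^ 2 + θ₁ z * θ₂ z + γ * θ₂ z ^ 2) :
    η₁ = η₁ u • θ₁ + η₁ w • θ₂ ∧ η₂ = η₂ u • θ₁ + η₂ w • θ₂ ∧
      α * η₁ u ^ 2 + η₁ u * η₂ u + γ * η₂ u ^ 2 = α ∧
      α * η₁ w ^ 2 + η₁ w * η₂ w + γ * η₂ w ^ 2 = γ ∧ η₁ u * η₂ w + η₁ w * η₂ u = 1 := by
  have hp : ∀ x y, η₁ x * η₂ y + η₁ y * η₂ x = θ₁ x * θ₂ y + θ₁ y * θ₂ x := fun x y => by
    have := h (x + y)
    simp only [map_add] at this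
    linear_combination this - h x - h y +
      (α * θ₁ x * θ₁ y + γ * θ₂ x * θ₂ y - α * η₁ x * η₁ y - γ * η₂ x * η₂ y) * h2
  have h6 := hp u w
  rw [h1, h3, h4, h5, mul_one, mul_zero, add_zero] at h6
  refine ⟨LinearMap.ext fun y => ?_, LinearMap.ext fun y => ?_, by simpa [h1, h3] using h u,
    by simpa [h4, h5] using h w, h6⟩
  all_goals
    have h7 := hp u y
    have h8 := hp w y
    simp only [h1, h3, h4, h5, one_mul, mul_one, mul_zero, zero_mul, add_zero, zero_add] at h7 h8
    simp only [LinearMap.add_apply, LinearMap.smul_apply, smul_eq_mul, ← h7, ← h8]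
  · linear_combination (-η₁ y) * h6 - η₁ u * η₁ w * η₂ y * h2
  · linear_combination (-η₂ y) * h6 - η₂ u * η₂ w * η₁ y * h2

theorem aniso_fibre [DecidableEq F] (h2 : (2 : F) = 0) {α γ a b c d a' b' c' d' : F} (hα : α ≠ 0)
    (x3 : α * a ^ 2 + a * c + γ * c ^ 2 = α) (x4 : α * b ^ 2 + b * d + γ * d ^ 2 = γ)
    (x5 : a * d + b * c = 1) (y3 : α * a' ^ 2 + a' * c' + γ * c' ^ 2 = α)
    (y4 : α * b' ^ 2 + b' * d' + γ * d' ^ 2 = γ) (y5 : a' * d' + b' * c' = 1)
    (h8 : (if c = 0 then none else some (a / c)) = if c' = 0 then none else some (a' / c'))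
    (h9 : α * a * b + b * c + γ * c * d = 0 ↔ α * a' * b' + b' * c' + γ * c' * d' = 0) :
    a = a' ∧ b = b' ∧ c = c' ∧ d = d' := by
  have hsq : ∀ {x y : F}, x ^ 2 = y ^ 2 → x = y := fun {x y} h =>
    sub_eq_zero.1 (pow_eq_zero_iff two_ne_zero |>.1 (by
      linear_combination h + (y ^ 2 - x * y) * h2 : (x - y) ^ 2 = 0))
  obtain ⟨rfl, rfl⟩ : a = a' ∧ c = c' := by
    by_cases h4 : c = 0 <;> by_cases h5 : c' = 0 <;>
      simp only [h4, h5, if_true, if_false, reduceCtorEq, Option.some.injEq] at h8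
    · subst h4 h5
      exact ⟨hsq (mul_left_cancel₀ hα (by linear_combination x3 - y3)), rfl⟩
    · obtain ⟨t, rfl⟩ : ∃ t, a = t * c := ⟨a / c, by field_simp⟩
      rw [mul_div_cancel_right₀ _ h4, eq_div_iff h5] at h8
      subst h8
      have : c = c' := hsq (mul_left_cancel₀ hα (by linear_combination c' ^ 2 * x3 - c ^ 2 * y3))
      exact ⟨by rw [this], this⟩
  have hD : ∀ {b d : F}, α * b ^ 2 + b * d + γ * d ^ 2 = γ → a * d + b * c = 1 →
      (α * a * b + b * c + γ * c * d) * (α * a * b + b * c + γ * c * d - 1) = 0 := by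
    intro b d h h'
    linear_combination (α * b ^ 2 + b * d + γ * d ^ 2) * x3 + α * h +
      (α * a * b + b * c + γ * c * d - α * γ * (a * d + b * c + 1)) * h' +
      (2 * α * γ * a * b * c * d - α * a ^ 2 * b * d - a * b * c * d - γ * a * c * d ^ 2) * h2
  have h10 : α * a * b + b * c + γ * c * d = α * a * b' + b' * c + γ * c * d' := by
    by_cases h : α * a * b + b * c + γ * c * d = 0
    · rw [h, h9.1 h]
    · rw [sub_eq_zero.1 ((mul_eq_zero.1 (hD x4 x5)).resolve_left h),
        sub_eq_zero.1 ((mul_eq_zero.1 (hD y4 y5)).resolve_left (mt h9.2 h))]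
  refine ⟨rfl, mul_left_cancel₀ hα ?_, rfl, mul_left_cancel₀ hα ?_⟩
  · linear_combination (b' - b) * x3 + a * h10 + γ * c * (x5 - y5) - γ * a * c * (d - d') * h2
  · linear_combination (d' - d) * x3 + c * h10 + (α * a + c) * (x5 - y5) -
      (α * a * c + c ^ 2) * (b - b') * h2

theorem exists_equiv_binary [FiniteDimensional F U] (h2 : (2 : F) = 0) (S : U →ₗ[F] U →ₗ[F] F)
    {u w : U} (hb : S u w + S w u = 1) (θ₁ θ₂ : Dual F U) (hθ : θ₁ u * θ₂ w - θ₁ w * θ₂ u ≠ 0) :
    ∃ g : U ≃ₗ[F] U, ∀ z, S (g z) (g z) =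
      S (z - (S z w + S w z) • u - (S z u + S u z) • w)
        (z - (S z w + S w z) • u - (S z u + S u z) • w) +
      (S u u * θ₁ z ^ 2 + θ₁ z * θ₂ z + S w w * θ₂ z ^ 2) := by
  let g : U →ₗ[F] U := LinearMap.id - (S.flip w + S w).smulRight u - (S.flip u + S u).smulRight w +
    θ₁.smulRight u + θ₂.smulRight w
  have hg : ∀ z, g z = z - (S z w + S w z) • u - (S z u + S u z) • w + θ₁ z • u + θ₂ z • w :=
    fun z => rfl
  have huu : S u u + S u u = 0 := by linear_combination S u u * h2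
  have hww : S w w + S w w = 0 := by linear_combination S w w * h2
  have hinj : Function.Injective g := by
    rw [injective_iff_map_eq_zero]
    intro z hz
    rw [hg] at hz
    have h1 := congrArg (S.flip w + S w) hz
    have h3 := congrArg (S.flip u + S u) hz
    simp only [map_add, map_sub, map_smul, smul_eq_mul, map_zero, LinearMap.add_apply,
      LinearMap.flip_apply, hb, huu, hww, add_comm (S w u), mul_one, mul_zero, sub_self, sub_zero,
      zero_add, add_zero] at h1 h3
    rw [h1, h3, zero_smul, zero_smul, add_zero, add_zero, sub_sub, sub_eq_zero] at hz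
    rw [hz] at h1 h3
    simp only [map_add, map_smul, smul_eq_mul] at h1 h3
    have h4 : S z w + S w z = 0 := (mul_eq_zero.1 (show (S z w + S w z) * _ = 0 by
      linear_combination θ₂ w * h1 - θ₁ w * h3)).resolve_right hθ
    have h5 : S z u + S u z = 0 := (mul_eq_zero.1 (show (S z u + S u z) * _ = 0 by
      linear_combination θ₁ u * h3 - θ₂ u * h1)).resolve_right hθ
    rw [hz, h4, h5]
    simp
  refine ⟨LinearEquiv.ofInjectiveEndo g hinj, fun z => ?_⟩
  change S (g z) (g z) = _
  rw [hg]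
  set z' := z - (S z w + S w z) • u - (S z u + S u z) • w with hz'
  have h3 : S z' u + S u z' = 0 := by
    simp only [hz', map_sub, map_smul, LinearMap.sub_apply, LinearMap.smul_apply, smul_eq_mul]
    linear_combination (-(S z w + S w z)) * huu - (S z u + S u z) * hb
  have h4 : S z' w + S w z' = 0 := by
    simp only [hz', map_sub, map_smul, LinearMap.sub_apply, LinearMap.smul_apply, smul_eq_mul]
    linear_combination (-(S z u + S u z)) * hww - (S z w + S w z) * hb
  simp only [map_add, map_smul, LinearMap.add_apply, LinearMap.smul_apply, smul_eq_mul]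
  linear_combination θ₁ z * h3 + θ₂ z * h4 + θ₁ z * θ₂ z * hb

theorem card_le_mul_orbit_two [Fintype F] (h2 : (2 : F) = 0) [FiniteDimensional F U]
    (S : U →ₗ[F] U →ₗ[F] F) {u₀ w₀ : U} (hb₀ : S u₀ w₀ + S w₀ u₀ ≠ 0) :
    (Fintype.card F ^ finrank F U - 1) * (Fintype.card F ^ finrank F U - Fintype.card F) ≤
      2 * (Fintype.card F + 1) *
        Nat.card {f : U → F // ∃ g : U ≃ₗ[F] U, ∀ w, S (g w) (g w) = f w} := by
  classical
  have : Finite U := Module.finite_of_finite F
  have : Finite (Dual F U) := Module.finite_of_finite F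
  have hli : ∀ {u w : U}, S u w + S w u = 1 → LinearIndependent F ![u, w] := fun {u w} hb => by
    rw [LinearIndependent.pair_iff]
    intro s t hst
    have h1 := congrArg (S.flip w + S w) hst
    have h3 := congrArg (S.flip u + S u) hst
    simp only [map_add, map_smul, smul_eq_mul, map_zero, LinearMap.add_apply,
      LinearMap.flip_apply] at h1 h3
    exact ⟨by linear_combination h1 - s * hb - t * S w w * h2,
      by linear_combination h3 - t * hb - s * S u u * h2⟩
  by_cases hA : ∃ u w, S u w + S w u = 1 ∧ S u u = 0 ∧ S w w = 0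
  · obtain ⟨u, w, hb, hu, hw⟩ := hA
    let A := (Submodule.span F (Set.range ![u, w])).dualAnnihilator
    have hAu : ∀ η : A, η.1 u = 0 := fun η =>
      (Submodule.mem_dualAnnihilator _).1 η.2 u (Submodule.subset_span ⟨0, rfl⟩)
    have hAw : ∀ η : A, η.1 w = 0 := fun η =>
      (Submodule.mem_dualAnnihilator _).1 η.2 w (Submodule.subset_span ⟨1, rfl⟩)
    have hdim : finrank F A + 2 = finrank F U := by
      have h1 := Subspace.finrank_add_finrank_dualAnnihilator_eq (Submodule.span F (Set.range ![u, w]))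
      rw [finrank_span_eq_card (hli hb), Fintype.card_fin, add_comm] at h1
      exact h1
    let θ : Fin 2 → GL (Fin 2) F × (Fin 2 → A) → Dual F U := fun i x =>
      x.1 i 0 • (S.flip w + S w) + x.1 i 1 • (S.flip u + S u) + (x.2 i).1
    have hθu : ∀ i x, θ i x u = x.1 i 0 := fun i x => by simp [θ, hAu, hu, ← mul_add, hb]
    have hθw : ∀ i x, θ i x w = x.1 i 1 := fun i x => by
      simp [θ, hAw, hw, ← mul_add, add_comm (S w u), hb]
    have hdet : ∀ x, θ 0 x u * θ 1 x w - θ 0 x w * θ 1 x u ≠ 0 := fun x => by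
      simp only [hθu, hθw, ← Matrix.det_fin_two]
      exact x.1.det_ne_zero
    have hinj : ∀ x y, θ 0 x = θ 0 y → θ 1 x = θ 1 y → x = y := fun x y h0 h1 => by
      have h3 : ∀ i, θ i x = θ i y := Fin.forall_fin_two.2 ⟨h0, h1⟩
      have h4 : x.1 = y.1 := Matrix.GeneralLinearGroup.ext fun i => Fin.forall_fin_two.2
        ⟨by rw [← hθu, ← hθu, h3], by rw [← hθw, ← hθw, h3]⟩
      refine Prod.ext h4 (funext fun i => Subtype.ext ?_)
      simpa [θ, h4] using h3 i
    have h3 := card_le_mul_of_fibre (T := Bool × Fˣ) (fun x : GL (Fin 2) F × (Fin 2 → A) =>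
      (⟨_, exists_equiv_binary h2 S hb (θ 0 x) (θ 1 x) (hdet x)⟩ :
        {f : U → F // ∃ g : U ≃ₗ[F] U, ∀ w, S (g w) (g w) = f w})) fun a => by
      set D := θ 0 a u * θ 1 a w - θ 0 a w * θ 1 a u with hD
      have hD0 : D ≠ 0 := hdet a
      set u' := (θ 1 a w / D) • u - (θ 1 a u / D) • w
      set w' := (θ 0 a u / D) • w - (θ 0 a w / D) • u
      have key : ∀ x, (⟨_, exists_equiv_binary h2 S hb (θ 0 x) (θ 1 x) (hdet x)⟩ :
          {f : U → F // ∃ g : U ≃ₗ[F] U, ∀ w, S (g w) (g w) = f w}) =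
            ⟨_, exists_equiv_binary h2 S hb (θ 0 a) (θ 1 a) (hdet a)⟩ → _ := fun x hx =>
        binary_fibre h2 (u := u') (w := w') (θ₁ := θ 0 a) (θ₂ := θ 1 a) (η₁ := θ 0 x) (η₂ := θ 1 x)
          (by simp only [u', map_sub, map_smul, smul_eq_mul]; field_simp; ring)
          (by simp only [u', map_sub, map_smul, smul_eq_mul]; field_simp; ring)
          (by simp only [w', map_sub, map_smul, smul_eq_mul]; field_simp; ring)
          (by simp only [w', map_sub, map_smul, smul_eq_mul]; field_simp; ring)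
          fun z => add_left_cancel (congrFun (congrArg Subtype.val hx) z)
      refine ⟨fun x => if h : θ 0 x u' = 0 then
          (true, if h' : θ 0 x w' = 0 then 1 else Units.mk0 _ h') else (false, Units.mk0 _ h),
        fun x y hx hy hxy => ?_⟩
      obtain ⟨x1, x2, x3, x4, x5⟩ := key x hx
      obtain ⟨y1, y2, y3, y4, y5⟩ := key y hy
      simp only [hu, hw, zero_mul, zero_add, add_zero] at x3 x4 y3 y4
      have : θ 0 x u' = θ 0 y u' ∧ θ 0 x w' = θ 0 y w' ∧ θ 1 x u' = θ 1 y u' ∧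
          θ 1 x w' = θ 1 y w' := by
        by_cases h4 : θ 0 x u' = 0 <;> by_cases h5 : θ 0 y u' = 0 <;>
          simp only [h4, h5, dite_true, dite_false, Prod.mk.injEq, reduceCtorEq, false_and,
            true_and] at hxy
        · have h6 : θ 0 x w' ≠ 0 := by grind
          have h7 : θ 0 y w' ≠ 0 := by grind
          simp only [h6, h7, dite_false, Units.mk0_inj] at hxy
          grind
        · simp only [Units.mk0_inj] at hxy
          grind
      exact hinj x y (by rw [x1, y1, this.1, this.2.1]) (by rw [x2, y2, this.2.2.1, this.2.2.2])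
    rw [Nat.card_prod, Nat.card_prod, Matrix.card_GL_field, Nat.card_fun, Nat.card_units,
      Module.natCard_eq_pow_finrank (K := F) (V := A), Fin.prod_univ_two] at h3
    simp only [Nat.card_eq_fintype_card, Fintype.card_bool, Fintype.card_fin, Fin.val_zero,
      Fin.val_one, pow_zero, pow_one] at h3 ⊢
    rw [← hdim]
    obtain ⟨r, hr⟩ := Nat.exists_eq_add_of_le' (show 2 ≤ Fintype.card F from Fintype.one_lt_card)
    rw [hr] at h3 ⊢
    generalize Nat.card {f : U → F // ∃ g : U ≃ₗ[F] U, ∀ w, S (g w) (g w) = f w} = N at h3 ⊢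
    rw [pow_add]
    generalize (r + 2) ^ finrank F A = Q at h3 ⊢
    rw [show (r + 2) ^ 2 - 1 = (r + 1) * (r + 3) by rw [Nat.sub_eq_iff_eq_add (by nlinarith)]; ring,
      show (r + 2) ^ 2 - (r + 2) = (r + 1) * (r + 2) by
        rw [Nat.sub_eq_iff_eq_add (by nlinarith)]; ring,
      show r + 2 - 1 = r + 1 from rfl] at h3
    have h4 : (r + 1) * (r + 3) * (r + 2) * Q ^ 2 ≤ 2 * N :=
      Nat.le_of_mul_le_mul_left (c := r + 1) (by nlinarith [h3]) (by omega)
    calc _ ≤ (Q * (r + 2) ^ 2) * (Q * (r + 2) ^ 2) := Nat.mul_le_mul (Nat.sub_le _ _) (Nat.sub_le _ _)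
      _ = (r + 2) ^ 3 * ((r + 2) * Q ^ 2) := by ring
      _ ≤ ((r + 3) * (r + 1) * (r + 3)) * ((r + 2) * Q ^ 2) :=
        Nat.mul_le_mul_right _ (by nlinarith [Nat.zero_le (r ^ 2)])
      _ = (r + 3) * ((r + 1) * (r + 3) * (r + 2) * Q ^ 2) := by ring
      _ ≤ (r + 3) * (2 * N) := Nat.mul_le_mul_left _ h4
      _ = _ := by ring
  have hrad : ∀ x y, S x x = 0 → S x y + S y x = 0 := fun x y hx => by
    by_contra h0
    refine hA ⟨x, (S x y + S y x)⁻¹ • y + (S y y / (S x y + S y x) ^ 2) • x, ?_, hx, ?_⟩ <;>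
      simp only [map_add, map_smul, LinearMap.add_apply, LinearMap.smul_apply, smul_eq_mul, hx]
    · field_simp
      ring
    · field_simp
      linear_combination S y y * (S x y + S y x) ^ 2 * h2
  obtain ⟨u, w, hb⟩ : ∃ u w, S u w + S w u = 1 := ⟨(S u₀ w₀ + S w₀ u₀)⁻¹ • u₀, w₀, by
    simp only [map_smul, LinearMap.smul_apply, smul_eq_mul]
    field_simp⟩
  have hα : S u u ≠ 0 := fun h => by simp [hrad u w h] at hb
  have h0 : ∀ z, S (z - (S z w + S w z) • u - (S z u + S u z) • w)
      (z - (S z w + S w z) • u - (S z u + S u z) • w) = 0 := fun z => by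
    set z' := z - (S z w + S w z) • u - (S z u + S u z) • w with hz'
    have h3 : S z' u + S u z' = 0 := by
      simp only [hz', map_sub, map_smul, LinearMap.sub_apply, LinearMap.smul_apply, smul_eq_mul]
      linear_combination (-(S z w + S w z)) * S u u * h2 - (S z u + S u z) * hb
    have h4 : S z' w + S w z' = 0 := by
      simp only [hz', map_sub, map_smul, LinearMap.sub_apply, LinearMap.smul_apply, smul_eq_mul]
      linear_combination (-(S z u + S u z)) * S w w * h2 - (S z w + S w z) * hb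
    by_contra hz
    obtain ⟨t, ht⟩ := FiniteField.isSquare_of_char_two
      (ringChar.eq_iff.2 ((CharP.charP_iff_prime_eq_zero Nat.prime_two).2 h2)) (S u u / S z' z')
    rw [div_eq_iff hz] at ht
    have h5 := hrad (u + t • z') w (by
      simp only [map_add, map_smul, LinearMap.add_apply, LinearMap.smul_apply, smul_eq_mul]
      linear_combination t * h3 - ht + S u u * h2)
    simp only [map_add, map_smul, LinearMap.add_apply, LinearMap.smul_apply, smul_eq_mul] at h5
    exact one_ne_zero (by linear_combination h5 - hb - t * h4)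
  have hn : 2 ≤ finrank F (Dual F U) := by
    rw [Subspace.dual_finrank_eq]
    simpa using (hli hb).fintype_card_le_finrank
  have h3 := card_le_mul_of_fibre (T := Option F × Bool)
    (fun s : {s : Fin 2 → Dual F U // LinearIndependent F s} =>
      (⟨fun z => S u u * s.1 0 z ^ 2 + s.1 0 z * s.1 1 z + S w w * s.1 1 z ^ 2, by
        obtain ⟨u', w', h4, h5, h6, h7⟩ := exists_dual_pair (θ₁ := s.1 0) (θ₂ := s.1 1) (by
          convert s.2; ext i; fin_cases i <;> rfl)
        obtain ⟨k, hk⟩ := H57.exists_linearEquiv_of_linearIndependent (hli hb) (v := ![u', w']) (by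
          rw [LinearIndependent.pair_iff]
          intro a b hab
          exact ⟨by simpa [h4, h6] using congrArg (s.1 0) hab,
            by simpa [h5, h7] using congrArg (s.1 1) hab⟩)
        have hk0 : k u = u' := hk 0
        have hk1 : k w = w' := hk 1
        obtain ⟨g, hg⟩ := exists_equiv_binary h2 S hb (s.1 0 ∘ₗ k.toLinearMap)
          (s.1 1 ∘ₗ k.toLinearMap) (by simp [hk0, hk1, h4, h5, h6, h7])
        exact ⟨k.symm ≪≫ₗ g, fun z => by
          rw [LinearEquiv.trans_apply, hg, h0]; simp⟩⟩ :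
        {f : U → F // ∃ g : U ≃ₗ[F] U, ∀ w, S (g w) (g w) = f w})) fun a => by
    obtain ⟨u', w', h4, h5, h6, h7⟩ := exists_dual_pair (θ₁ := a.1 0) (θ₂ := a.1 1) (by
      convert a.2; ext i; fin_cases i <;> rfl)
    refine ⟨fun x => (if x.1 1 u' = 0 then none else some (x.1 0 u' / x.1 1 u'),
      decide (S u u * x.1 0 u' * x.1 0 w' + x.1 0 w' * x.1 1 u' + S w w * x.1 1 u' * x.1 1 w' = 0)),
      fun x y hx hy hxy => ?_⟩
    obtain ⟨x1, x2, x3, x4, x5⟩ := binary_fibre h2 h4 h5 h6 h7 (congrFun (congrArg Subtype.val hx))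
    obtain ⟨y1, y2, y3, y4, y5⟩ := binary_fibre h2 h4 h5 h6 h7 (congrFun (congrArg Subtype.val hy))
    obtain ⟨h8, h9⟩ := Prod.ext_iff.1 hxy
    have h10 := aniso_fibre h2 hα x3 x4 x5 y3 y4 y5 h8 (decide_eq_decide.1 h9)
    exact Subtype.ext (funext (Fin.forall_fin_two.2
      ⟨by rw [x1, y1, h10.1, h10.2.1], by rw [x2, y2, h10.2.2.1, h10.2.2.2]⟩))
  rw [card_linearIndependent hn, Subspace.dual_finrank_eq, Fin.prod_univ_two, Nat.card_prod,
    Finite.card_option] at h3
  simpa [mul_comm] using h3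

end H59
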