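/- Lower bounds for cross characteristic representations of `SL_n(q)` and `Sp_{2n}(q)`. -/
import Cfsg.Agent.Base
import Cfsg.Agent.H54.SpSimple
import Cfsg.Agent.H59.SpLS
import Cfsg.Agent.H59.QuadOrbit

set_option autoImplicit false

namespace H59

open Module

variable {K : Type*} [Field K] {F : Type*} [Field F]

/-- joint eigenvectors with distinct eigenvalue functions are linearly independent -/
theorem card_le_finrank_of_joint_eigen {I J M : Type*} [Finite I] [AddCommGroup M] [Module K M]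
    [FiniteDimensional K M] (T : J → Module.End K M) (μ : I → J → K) (hμ : Function.Injective μ)
    (h : ∀ i, ∃ v : M, v ≠ 0 ∧ ∀ j, T j v = μ i j • v) : Nat.card I ≤ finrank K M := by
  classical
  choose v hv h using h
  have := Fintype.ofFinite I
  have h1 : ∀ i (m : FreeMonoid J), FreeMonoid.lift T m (v i) = FreeMonoid.lift (μ i) m • v i := by
    intro i m
    induction m with
    | one => simp
    | of j => simp [h]
    | mul a b ha hb => rw [map_mul, map_mul, Module.End.mul_apply, hb, map_smul, ha, smul_smul, mul_comm]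
  have h2 := (linearIndependent_monoidHom (FreeMonoid J) K).comp (fun i => FreeMonoid.lift (μ i))
    (FreeMonoid.lift.injective.comp hμ)
  rw [Nat.card_eq_fintype_card]
  refine LinearIndependent.fintype_card_le_finrank (b := v) ?_
  rw [linearIndependent_iff'] at h2 ⊢
  intro s c hc i hi
  obtain ⟨φ, hφ⟩ := Module.Projective.exists_dual_eq_one K (hv i)
  have h3 := h2 s (fun i => c i * φ (v i)) (by
    ext m
    have := congrArg (fun x => φ (FreeMonoid.lift T m x)) hc
    simp only [map_sum, map_smul, h1, map_zero, smul_eq_mul] at this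
    simp only [Finset.sum_apply, Pi.smul_apply, Function.comp, smul_eq_mul, Pi.zero_apply]
    rw [← this]
    exact Finset.sum_congr rfl fun i _ => by ring) i hi
  rwa [hφ, mul_one] at h3

theorem cast_card_ne_zero_of_addChar [Finite F] {ψ : AddChar F K} (hψ : ψ ≠ 1) :
    (Nat.card F : K) ≠ 0 := by
  have := Fintype.ofFinite F
  obtain ⟨p, hp, k, hpp, hk⟩ := FiniteField.card' F
  obtain ⟨a, ha⟩ := AddChar.ne_one_iff.1 hψ
  rw [Nat.card_eq_fintype_card, hk, Nat.cast_pow]
  refine pow_ne_zero _ fun h => ha ?_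
  have := Fact.mk hpp
  have : CharP K p := (CharP.charP_iff_prime_eq_zero hpp).2 h
  have h1 : (ψ a - 1) ^ p = 0 := by
    rw [sub_pow_char, one_pow, ← AddChar.map_nsmul_eq_pow, nsmul_eq_mul, CharP.cast_eq_zero, zero_mul,
      AddChar.map_zero_eq_one, sub_self]
  exact sub_eq_zero.1 (pow_eq_zero_iff hpp.ne_zero |>.1 h1)

theorem exists_joint_eigenK [Finite F] {W M : Type*} [AddCommGroup W] [Module F W]
    [FiniteDimensional F W] [AddCommGroup M] [Module K M] {ψ : AddChar F K} (hψ : ψ ≠ 1)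
    (r : W → Module.End K M) (h0 : r 0 = 1) (hr : ∀ s t, r (s + t) = r s * r t) {s₀ : W}
    (hs₀ : r s₀ ≠ 1) :
    ∃ (φ : Dual F W) (v : M), v ≠ 0 ∧ ψ (φ s₀) ≠ 1 ∧ ∀ s, r s v = ψ (φ s) • v := by
  classical
  have : Finite W := Module.finite_of_finite F
  have : Finite (Dual F W) := Module.finite_of_finite F
  have := Fintype.ofFinite W
  have := Fintype.ofFinite (Dual F W)
  let P : Dual F W → M → M := fun φ v => ∑ s, ψ (-φ s) • r s v
  have hP : ∀ φ v t, r t (P φ v) = ψ (φ t) • P φ v := fun φ v t => by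
    simp only [P, map_sum, map_smul, Finset.smul_sum, smul_smul, ← Module.End.mul_apply, ← hr]
    rw [eq_comm, ← Equiv.sum_comp (Equiv.addLeft t)]
    refine Finset.sum_congr rfl fun s _ => ?_
    rw [← AddChar.map_add_eq_mul]
    simp
  have hsum : ∀ v, ∑ φ, P φ v = (Fintype.card (Dual F W) : K) • v := fun v => by
    simp only [P]
    rw [Finset.sum_comm, Finset.sum_eq_single 0 (fun s _ hs => ?_) (by simp)]
    · simp [h0, Nat.cast_smul_eq_nsmul]
    · obtain ⟨a, ha⟩ := AddChar.ne_one_iff.1 hψ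
      obtain ⟨φ₀, hφ₀⟩ := Module.Projective.exists_dual_eq_one F hs
      have h1 : ∑ φ : Dual F W, ψ (-((-a) • φ₀ + φ) s) = ∑ φ : Dual F W, ψ (-φ s) :=
        Equiv.sum_comp (Equiv.addLeft ((-a) • φ₀)) fun φ : Dual F W => ψ (-φ s)
      simp only [LinearMap.add_apply, LinearMap.smul_apply, hφ₀, smul_eq_mul, mul_one, neg_add,
        neg_neg, AddChar.map_add_eq_mul, ← Finset.mul_sum] at h1
      have h2 : (ψ a - 1) * ∑ φ : Dual F W, ψ (-φ s) = 0 := by rw [sub_mul, h1, one_mul, sub_self]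
      rw [← Finset.sum_smul, (mul_eq_zero.1 h2).resolve_left (sub_ne_zero.2 ha), zero_smul]
  by_contra! h
  apply hs₀
  ext v
  have h2 : ∀ φ, r s₀ (P φ v) = P φ v := fun φ => by
    by_cases h3 : P φ v = 0
    · rw [h3, map_zero]
    by_cases h4 : ψ (φ s₀) = 1
    · rw [hP, h4, one_smul]
    obtain ⟨s, hs⟩ := h φ _ h3 h4
    exact absurd (hP φ v s) hs
  have h5 := congrArg (r s₀) (hsum v)
  rw [map_sum, Finset.sum_congr rfl fun φ _ => h2 φ, hsum, map_smul] at h5
  refine (smul_right_injective M ?_ h5).symm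
  rw [← Nat.card_eq_fintype_card, Module.natCard_eq_pow_finrank (K := F), Nat.cast_pow]
  exact pow_ne_zero _ (cast_card_ne_zero_of_addChar hψ)

/-- extension of scalars of a matrix representation to a field with a primitive character -/
theorem exists_rep_ext {G : Type*} [Group G] {d : ℕ} (ρ : G →* GL (Fin d) K) (L : Type*) [Field L]
    [Algebra K L] : ∃ ρ' : Representation L G (Fin d → L), ∀ g, ρ' g = 1 → ρ g = 1 := by
  refine ⟨(Matrix.toLinAlgEquiv' (R := L) (n := Fin d)).toRingEquiv.toMonoidHom.comp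
    (((algebraMap K L).mapMatrix.toMonoidHom.comp (Units.coeHom _)).comp ρ), fun g hg => ?_⟩
  have h1 : (algebraMap K L).mapMatrix (ρ g : Matrix (Fin d) (Fin d) K) = 1 :=
    (Matrix.toLinAlgEquiv' (R := L) (n := Fin d)).injective (hg.trans (map_one _).symm)
  refine Units.ext (Matrix.map_injective (algebraMap K L).injective ?_)
  exact h1.trans (map_one (algebraMap K L).mapMatrix).symm

section Sp

open H54 Matrix

variable {l : Type*} [Fintype l] [DecidableEq l]

/-- symmetric matrices -/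
def symMat (l F : Type*) [Field F] : Submodule F (Matrix l l F) where
  carrier := {s | sᵀ = s}
  add_mem' := fun {a b} ha hb => by
    simp only [Set.mem_ofPred_eq, transpose_add] at ha hb ⊢
    rw [ha, hb]
  zero_mem' := rfl
  smul_mem' := fun c a ha => by
    simp only [Set.mem_ofPred_eq, transpose_smul] at ha ⊢
    rw [ha]

/-- the unipotent radical of the Siegel parabolic -/
def siegS (s : symMat l F) : Matrix.symplecticGroup l F :=
  ⟨fromBlocks 1 s.1 0 1, by
    have h : s.1ᵀ = s.1 := s.2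
    rw [SymplecticGroup.mem_iff]
    simp [Matrix.J, fromBlocks_transpose, fromBlocks_multiply, h]⟩

theorem siegS_zero : siegS (0 : symMat l F) = 1 := Subtype.ext (by simp [siegS])

theorem siegS_add (s t : symMat l F) : siegS (s + t) = siegS s * siegS t :=
  Subtype.ext (by simp [siegS, fromBlocks_multiply, add_comm])

theorem siegS_eq_one {s : symMat l F} (h : siegS s = 1) : s = 0 := by
  have := congrArg (fun g : Matrix.symplecticGroup l F => toBlocks₁₂ g.1) h
  exact Subtype.ext (by simpa [siegS, ← fromBlocks_one] using this)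

theorem siegS_vecMulVec (u : l → F) (c : F) :
    siegS ⟨c • vecMulVec u u, show _ = _ by rw [transpose_smul, transpose_vecMulVec]⟩ =
      tv (Sum.elim u 0) c := by
  refine Subtype.ext ?_
  ext (i | i) (j | j) <;>
    simp [siegS, tv_coe, tvMat, vecMulVec_apply, J_mulVec_inl, J_mulVec_inr, Matrix.one_apply]

theorem exists_form_orbit_le [Finite F] {ψ : AddChar F K} (hψ : ψ ≠ 1) {M : Type*}
    [AddCommGroup M] [Module K M] [FiniteDimensional K M]
    (ρ : Representation K (Matrix.symplecticGroup l F) M) {s₀ : symMat l F}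
    (hs₀ : ρ (siegS s₀) ≠ 1) : ∃ φ : Dual F (Matrix l l F), φ s₀.1 ≠ 0 ∧
      Nat.card {f : (l → F) → F // ∃ g : (l → F) ≃ₗ[F] (l → F), ∀ w,
        φ (vecMulVec (g w) (g w)) = f w} ≤ finrank K M := by
  classical
  have hψp := AddChar.IsPrimitive.of_ne_one hψ
  let ι : (l → F) →ₗ[F] (l ⊕ l → F) :=
    { toFun := fun u => Sum.elim u 0
      map_add' := fun u w => by ext (i | i) <;> simp
      map_smul' := fun c u => by ext (i | i) <;> simp }
  have hι : Function.Injective ι := fun u w h => funext fun i => congrFun h (Sum.inl i)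
  have hιB : ∀ u w, spB l F (ι u) (ι w) = 0 := fun u w => by simp [spB_eq_sum, ι]
  obtain ⟨φ₀, v, hv, hφ, hev⟩ := exists_joint_eigenK hψ (fun s => ρ (siegS s))
    (by rw [siegS_zero, map_one]) (fun s t => by rw [siegS_add, map_mul]) hs₀
  obtain ⟨φ, rfl⟩ := LinearMap.exists_extend φ₀
  refine ⟨φ, fun h => hφ (by rw [LinearMap.comp_apply, Submodule.subtype_apply, h,
    AddChar.map_zero_eq_one]), ?_⟩
  refine card_le_finrank_of_joint_eigen (fun j : (l → F) × F => ρ (tv (ι j.1) j.2))
    (fun f j => ψ (j.2 * f.1 j.1)) (fun f f' h => Subtype.ext (funext fun x => ?_)) ?_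
  · refine AddChar.to_mulShift_inj_of_isPrimitive hψp (AddChar.ext _ _ fun c => ?_)
    simpa [mul_comm] using congrFun h (x, c)
  rintro ⟨f, g, hg⟩
  obtain ⟨k, hk⟩ := sp_witt_linearMap ι (ι ∘ₗ g.toLinearMap) hι (hι.comp g.injective)
    fun a b => (hιB _ _).trans (hιB _ _).symm
  refine ⟨ρ k⁻¹ v, fun h => hv ?_, fun j => ?_⟩
  · rw [← ρ.self_inv_apply k v, h, map_zero]
  · have h7 : tv (ι j.1) j.2 * k⁻¹ = k⁻¹ * tv (ι (g j.1)) j.2 := by
      have := tv_conj k (ι j.1) j.2
      rw [hk] at this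
      rw [show tv (ι (g j.1)) j.2 = _ from this.symm]
      group
    rw [← Module.End.mul_apply, ← map_mul, h7, map_mul, Module.End.mul_apply,
      show tv (ι (g j.1)) j.2 = _ from (siegS_vecMulVec _ _).symm, hev, map_smul]
    simp [hg]

theorem sp_ls_bound_odd [Fintype F] (hodd : Odd (Fintype.card F)) {ψ : AddChar F K} (hψ : ψ ≠ 1)
    {M : Type*} [AddCommGroup M] [Module K M] [FiniteDimensional K M]
    (ρ : Representation K (Matrix.symplecticGroup l F) M) {u : l → F}
    (hρ : ρ (tv (Sum.elim u 0) 1) ≠ 1) :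
    Fintype.card F ^ Fintype.card l - 1 ≤ 2 * finrank K M := by
  have h2 : (2 : F) ≠ 0 := Ring.two_ne_zero fun h => by
    rw [FiniteField.even_card_iff_char_two] at h
    exact absurd hodd (Nat.not_odd_iff_even.2 (Nat.even_iff.2 h))
  obtain ⟨φ, hφ, h⟩ := exists_form_orbit_le hψ ρ (siegS_vecMulVec u 1 ▸ hρ)
  let S₀ : (l → F) →ₗ[F] (l → F) →ₗ[F] F := (vecMulVecBilin F F).compr₂ φ
  have hS : ∀ w, ((2 : F)⁻¹ • (S₀ + S₀.flip)) w w = φ (vecMulVec w w) := fun w => by
    change 2⁻¹ * (φ (vecMulVec w w) + φ (vecMulVec w w)) = _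
    field_simp
    ring
  have h5 := card_le_two_mul_orbit hodd ((2 : F)⁻¹ • (S₀ + S₀.flip))
    (fun u w => congrArg ((2 : F)⁻¹ * ·) (add_comm _ _)) (v := u) (by rw [hS]; simpa using hφ)
  simp only [hS, Module.finrank_fintype_fun_eq_card] at h5
  exact h5.trans (Nat.mul_le_mul_left _ h)

theorem sp_ls_bound_even [Fintype F] (h2 : (2 : F) = 0) [Nontrivial l]
    (hc : commutator (Matrix.symplecticGroup l F) = ⊤) {ψ : AddChar F K} (hψ : ψ ≠ 1)
    {M : Type*} [AddCommGroup M] [Module K M] [FiniteDimensional K M]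
    (ρ : Representation K (Matrix.symplecticGroup l F) M) (hρ : ∃ g, ρ g ≠ 1) :
    (Fintype.card F ^ Fintype.card l - 1) * (Fintype.card F ^ Fintype.card l - Fintype.card F) ≤
      2 * (Fintype.card F + 1) * finrank K M := by
  obtain ⟨i, j, hij⟩ := exists_pair_ne l
  let s₀ : symMat l F := ⟨vecMulVec (Pi.single i 1) (Pi.single j 1) +
    vecMulVec (Pi.single j 1) (Pi.single i 1), show _ = _ by
      rw [transpose_add, transpose_vecMulVec, transpose_vecMulVec, add_comm]⟩
  obtain ⟨φ, hφ, h⟩ := exists_form_orbit_le hψ ρ (s₀ := s₀) fun h => by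
    rcases sp_normal_le_center_or_commutator_le ρ.toHomUnits.ker with h1 | h1
    · have h3 := mem_center_sp_iff.1 (h1 (show siegS s₀ ∈ _ from Units.ext h))
      rw [spNegOne_eq_one_iff.2 h2, or_self] at h3
      simpa [s₀, vecMulVec_apply, hij, hij.symm] using
        congrFun (congrFun (congrArg Subtype.val (siegS_eq_one h3)) i) j
    · obtain ⟨g, hg⟩ := hρ
      exact hg (congrArg Units.val (h1 (hc ▸ Subgroup.mem_top g)))
  have h5 := card_le_mul_orbit_two h2 ((vecMulVecBilin F F).compr₂ φ) (u₀ := Pi.single i 1)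
    (w₀ := Pi.single j 1) (by simpa [s₀] using hφ)
  rw [Module.finrank_fintype_fun_eq_card] at h5
  exact h5.trans (Nat.mul_le_mul_left _ h)

end Sp

section SL

open Matrix

theorem sl_ls_bound [Fintype F] {ψ : AddChar F K} (hψ : ψ ≠ 1) {m : ℕ} (hm : 2 ≤ m)
    {M : Type*} [AddCommGroup M] [Module K M] [FiniteDimensional K M]
    (ρ : Representation K (Matrix.SpecialLinearGroup (Fin (m + 1)) F) M) {w₀ : Fin m → F}
    (hρ : ρ (H57.tv (vecCons 0 w₀) (vecCons 1 0) (by simp)) ≠ 1) :
    Fintype.card F ^ m - 1 ≤ finrank K M := by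
  classical
  have hψp := AddChar.IsPrimitive.of_ne_one hψ
  let t : (Fin m → F) → Matrix.SpecialLinearGroup (Fin (m + 1)) F := fun w =>
    H57.tv (vecCons 0 w) (vecCons 1 0) (by simp)
  obtain ⟨φ, v, hv, hφ, hev⟩ := exists_joint_eigenK hψ (fun w => ρ (t w))
    (by simp only [t, cons_zero_zero, H57.tv_zero_left, map_one])
    (fun s s' => by simp [t, ← map_mul, H57.tv_mul_same_right]) hρ
  let Ω : Dual F (Fin m → F) → Prop := fun θ => ∃ v : M, v ≠ 0 ∧ ∀ w, ρ (t w) v = ψ (θ w) • v
  have step : ∀ θ θ', Ω θ → θ ≠ 0 → θ' ∉ Submodule.span F {θ} → Ω θ' := by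
    rintro θ θ' ⟨v, hv, hev⟩ h0 h1
    obtain ⟨a, b, h3, h4, h5, h6⟩ := exists_dual_pair (θ₁ := θ) (θ₂ := θ')
      ((LinearIndependent.pair_iff' h0).2 fun c hc => h1 (Submodule.mem_span_singleton.2 ⟨c, hc⟩))
    obtain ⟨η, hη⟩ := (dotProductEquiv F (Fin m)).surjective (θ' - θ)
    replace hη : ∀ w, η ⬝ᵥ w = θ' w - θ w := DFunLike.congr_fun hη
    let k := H57.tv (vecCons 0 (a + b)) (vecCons 0 η) (by simp [hη, h3, h4, h5, h6])
    refine ⟨ρ k⁻¹ v, fun h => hv (by rw [← ρ.self_inv_apply k v, h, map_zero]), fun w => ?_⟩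
    have h7 : k * t w = t (w + (η ⬝ᵥ w) • (a + b)) * k := by
      refine Subtype.ext (Matrix.ext_iff_mulVec.2 fun x => ?_)
      obtain ⟨x₀, x, rfl⟩ : ∃ x₀ x', x = vecCons x₀ x' := ⟨x 0, vecTail x, (cons_head_tail x).symm⟩
      simp only [Matrix.SpecialLinearGroup.coe_mul, ← mulVec_mulVec, H57.tv_mulVec, k, t]
      ext i
      refine Fin.cases ?_ (fun i => ?_) i <;> simp
      ring
    have h8 : t w * k⁻¹ = k⁻¹ * t (w + (η ⬝ᵥ w) • (a + b)) := by
      rw [eq_inv_mul_iff_mul_eq, ← mul_assoc, h7, mul_inv_cancel_right]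
    rw [← Module.End.mul_apply, ← map_mul, h8, map_mul, Module.End.mul_apply, hev, map_smul]
    simp [hη, h3, h5]
  have hφ0 : φ ≠ 0 := by rintro rfl; simp at hφ
  have hall : ∀ θ, θ ≠ 0 → Ω θ := fun θ hθ => by
    by_cases h1 : θ ∈ Submodule.span F {φ}
    · obtain ⟨θ', hθ'⟩ : ∃ θ', θ' ∉ Submodule.span F {φ} := by
        by_contra! h
        have := finrank_span_singleton (K := F) hφ0
        rw [Submodule.eq_top_iff'.2 h, finrank_top, Subspace.dual_finrank_eq,
          Module.finrank_fin_fun] at this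
        omega
      refine step θ' θ (step φ θ' ⟨v, hv, hev⟩ hφ0 hθ') (by rintro rfl; simp at hθ') fun h => hθ' ?_
      obtain ⟨c, rfl⟩ := Submodule.mem_span_singleton.1 h
      exact (Submodule.smul_mem_iff _ (by rintro rfl; simp at hθ)).1 h1
    · exact step φ θ ⟨v, hv, hev⟩ hφ0 h1
  have : Finite (Dual F (Fin m → F)) := Module.finite_of_finite F
  have h1 := card_le_finrank_of_joint_eigen (fun w => ρ (t w))
    (fun (θ : {θ : Dual F (Fin m → F) // θ ≠ 0}) w => ψ (θ.1 w))
    (fun θ θ' h => Subtype.ext (LinearMap.ext fun x =>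
      AddChar.to_mulShift_inj_of_isPrimitive hψp (AddChar.ext _ _ fun c => by
        simpa [mul_comm] using congrFun h (c • x)))) fun θ => hall θ.1 θ.2
  have := Fintype.ofFinite (Dual F (Fin m → F))
  rwa [Nat.card_eq_fintype_card, Fintype.card_subtype_compl, Fintype.card_subtype_eq,
    ← Nat.card_eq_fintype_card, Module.natCard_eq_pow_finrank (K := F), Subspace.dual_finrank_eq,
    Module.finrank_fin_fun, Nat.card_eq_fintype_card] at h1

end SL

end H59
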