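import Cfsg.Agent.H11.FBSpec

/-! Tower FB, job AL2b: a complement transitive on the central involutions has order three. -/

set_option autoImplicit false

namespace H59.FBAL2b

open MulAction Subgroup H11.FB

universe u v

theorem card_le_two {α : Type*} (o : α) (h : ∀ x y : α, x ≠ o → y ≠ o → x = y) :
    Nat.card α ≤ 2 := by
  have := Nat.card_le_card_of_injective (β := Prop) (fun x : α => x = o) fun x y e => by
    have e' : (x = o) = (y = o) := e
    by_cases hx : x = o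
    · exact hx.trans (e' ▸ hx).symm
    · exact h x y hx fun k => hx (e' ▸ k)
  rwa [Nat.card_eq_fintype_card (α := Prop), Fintype.card_prop] at this

variable {G : Type u} [Group G]

/-- the central elements of `P` of order at most two -/
def Om (P : Subgroup G) : Subgroup G where
  carrier := {z | z ∈ P ∧ z * z = 1 ∧ ∀ x ∈ P, x * z = z * x}
  one_mem' := ⟨P.one_mem, mul_one 1, fun x _ => by simp⟩
  mul_mem' := by
    rintro y z ⟨h1, h2, h3⟩ ⟨h4, h5, h6⟩
    refine ⟨P.mul_mem h1 h4, ?_, fun x hx => ?_⟩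
    · calc y * z * (y * z) = y * (z * y) * z := by group
        _ = y * (y * z) * z := by rw [h3 z h4]
        _ = (y * y) * (z * z) := by group
        _ = 1 := by rw [h2, h5, mul_one]
    · rw [← mul_assoc, h3 x hx, mul_assoc, h6 x hx, mul_assoc]
  inv_mem' := by
    rintro z ⟨h1, h2, h3⟩
    rw [inv_eq_of_mul_eq_one_right h2]
    exact ⟨h1, h2, h3⟩

theorem Om_conj {P : Subgroup G} {g z : G} (h1 : ∀ x ∈ P, g * x * g⁻¹ ∈ P)
    (h2 : ∀ x ∈ P, g⁻¹ * x * g⁻¹⁻¹ ∈ P) (hz : z ∈ Om P) : g * z * g⁻¹ ∈ Om P := by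
  refine ⟨h1 z hz.1, ?_, fun x hx => ?_⟩
  · calc g * z * g⁻¹ * (g * z * g⁻¹) = g * (z * z) * g⁻¹ := by group
      _ = 1 := by rw [hz.2.1]; group
  · calc x * (g * z * g⁻¹) = g * (g⁻¹ * x * g⁻¹⁻¹ * z) * g⁻¹ := by group
      _ = g * z * g⁻¹ * x := by rw [hz.2.2 _ (h2 x hx)]; group

theorem Om_ne [Finite G] {P : Subgroup G} (hp : IsPGroup 2 P) (hne : P ≠ ⊥) : Om P ≠ ⊥ := by
  have := (nontrivial_iff_ne_bot P).2 hne
  have := hp.center_nontrivial
  obtain ⟨n, hn, e⟩ := (hp.to_subgroup (center P)).nontrivial_iff_card.1 this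
  obtain ⟨z, hz⟩ := exists_prime_orderOf_dvd_card' (G := center P) 2 (e ▸ dvd_pow_self 2 hn.ne')
  have h1 : z * z = 1 := by rw [← sq, ← hz, pow_orderOf_eq_one]
  intro e0
  have h2 : ((z : P) : G) ∈ Om P := ⟨z.1.2, congrArg (fun t : center P => ((t : P) : G)) h1,
    fun x hx => congrArg Subtype.val (mem_center_iff.1 z.2 ⟨x, hx⟩)⟩
  rw [e0, mem_bot] at h2
  have h3 : z = 1 := Subtype.ext (Subtype.ext h2)
  rw [h3, orderOf_one] at hz
  omega

theorem card_Om_le [Finite G] {P : Subgroup G} {s : G} (hs : s * s = 1)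
    (hn : ∀ z ∈ Om P, s * z * s⁻¹ ∈ Om P)
    (hu : ∀ y ∈ Om P, ∀ z ∈ Om P, y ≠ 1 → z ≠ 1 → s * y * s⁻¹ = y → s * z * s⁻¹ = z → y = z) :
    Nat.card (Om P) ≤ 4 := by
  let φ : Om P →* G := MonoidHom.mk' (fun z => z * (s * z * s⁻¹)) fun y z => by
    have h1 := z.2.2.2 _ (hn y y.2).1
    calc (y : G) * z * (s * (y * z) * s⁻¹) = y * (z * (s * y * s⁻¹)) * (s * z * s⁻¹) := by group
      _ = y * (s * y * s⁻¹) * (z * (s * z * s⁻¹)) := by rw [← h1]; group
  have h1 : Nat.card φ.ker ≤ 2 := by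
    have h2 : ∀ y : φ.ker, s * ((y : Om P) : G) * s⁻¹ = (y : Om P) := fun y =>
      (eq_inv_of_mul_eq_one_right y.2).trans (inv_eq_of_mul_eq_one_right y.1.2.2.1)
    exact card_le_two 1 fun y z hy hz => Subtype.ext (Subtype.ext (hu _ y.1.2 _ z.1.2
      (fun e => hy (Subtype.ext (Subtype.ext e))) (fun e => hz (Subtype.ext (Subtype.ext e)))
      (h2 y) (h2 z)))
  have h3 : Nat.card φ.range ≤ 2 := by
    have h2 : ∀ y : φ.range, (y : G) ∈ Om P ∧ s * (y : G) * s⁻¹ = y := by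
      rintro ⟨_, z, rfl⟩
      refine ⟨(Om P).mul_mem z.2 (hn _ z.2), ?_⟩
      change s * (z * (s * z * s⁻¹)) * s⁻¹ = z * (s * z * s⁻¹)
      calc s * (z * (s * z * s⁻¹)) * s⁻¹ = s * z * s⁻¹ * ((s * s) * z * (s * s)⁻¹) := by group
        _ = z * (s * z * s⁻¹) := by
          rw [hs, one_mul, inv_one, mul_one]; exact z.2.2.2 _ (hn z z.2).1
    exact card_le_two 1 fun y z hy hz => Subtype.ext (hu _ (h2 y).1 _ (h2 z).1
      (fun e => hy (Subtype.ext e)) (fun e => hz (Subtype.ext e)) (h2 y).2 (h2 z).2)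
  rw [← φ.ker.card_mul_index, index_ker]
  exact Nat.mul_le_mul h1 h3

theorem jobAL2b : JobAL2b.{u, v} := by
  intro G Ω _ _ _ _ _ _ a b c d e K H P h w cx hh hp hT h5 hw _ hwd hww hinv htr
  have th := cx.th1 h hh hp
  have fr := cx.hy.fr
  obtain ⟨n1, n2, n3, n4, n5, n6⟩ := cx.hy.ne
  obtain ⟨wa, wb, -⟩ := mem_X3.1 hw
  have we : w • e = d := by rw [← hwd, ← mul_smul, hww, one_smul]
  have de : d ≠ e := by
    rintro rfl
    rw [hT, Set.pair_eq_singleton] at h5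
    have k1 := Set.ncard_insert_le a ({b, c, d} : Set Ω)
    have k2 := Set.ncard_insert_le b ({c, d} : Set Ω)
    have k3 := Set.ncard_insert_le c ({d} : Set Ω)
    rw [Set.ncard_singleton] at k3
    omega
  have ea : e ≠ a := fun k => n3 (MulAction.injective w (by
    change w • a = w • d; rw [wa, hwd, k]))
  have eb : e ≠ b := fun k => n5 (MulAction.injective w (by
    change w • b = w • d; rw [wb, hwd, k]))
  obtain ⟨g, hg, g1, g2, g3, g4⟩ := th.tr d e a b a b c d ⟨de, n3.symm, n5.symm, ea, eb, n1⟩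
    cx.hy.ne (by simp [hT]) (by simp [hT]) (by simp [hT]) (by simp [hT]) (by simp [hT])
    (by simp [hT]) (by simp [hT]) (by simp [hT])
  have hgH : g ∈ normalizer (H : Set G) := mem_normalizer_fintype fun x hx => by
    have k : ∀ ω ∈ ({a, b, c, d, e} : Set Ω), (g * x * g⁻¹) • g • ω = g • ω := fun ω hω => by
      rw [mul_smul, mul_smul, inv_smul_smul, th.fixH (by omega) x hx ω (hT ▸ hω)]
    refine (th.nl _ (mem_L4.2 ⟨?_, ?_, ?_, ?_⟩)).1
      (mul_mem (mul_mem hg ((th.nl x (fr.Hle hx)).2 hx)) (inv_mem hg))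
    · exact g1 ▸ k d (by simp)
    · exact g2 ▸ k e (by simp)
    · exact g3 ▸ k a (by simp)
    · exact g4 ▸ k b (by simp)
  obtain ⟨s, hs⟩ : ∃ s, s = g * w * g⁻¹ := ⟨_, rfl⟩
  have k : ∀ ω : Ω, s • g • ω = g • w • ω := fun ω => by rw [hs, mul_smul, mul_smul, inv_smul_smul]
  have sa : s • a = b := by have := k d; rwa [hwd, g1, g2] at this
  have sb : s • b = a := by have := k e; rwa [we, g1, g2] at this
  have sc : s • c = c := by have := k a; rwa [wa, g3] at this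
  have sd : s • d = d := by have := k b; rwa [wb, g4] at this
  have ss : s * s = 1 := by
    calc s * s = g * (w * w) * g⁻¹ := by rw [hs]; group
      _ = 1 := by rw [hww]; group
  have si : s⁻¹ = s := inv_eq_of_mul_eq_one_right ss
  have sH : ∀ x ∈ H, s * x * s⁻¹ = x⁻¹ := fun x hx => by
    have := hinv _ ((mem_normalizer_iff.1 (inv_mem hgH) x).1 hx)
    calc s * x * s⁻¹ = g * (w * (g⁻¹ * x * g⁻¹⁻¹) * w⁻¹) * g⁻¹ := by rw [hs]; group
      _ = x⁻¹ := by rw [this]; group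
  have sL : ∀ l ∈ L4 G a b c d, s * l * s⁻¹ ∈ L4 G a b c d := fun l hl => by
    obtain ⟨l1, l2, l3, l4⟩ := mem_L4.1 hl
    rw [si, mem_L4]
    simp only [mul_smul, sa, sb, sc, sd, l1, l2, l3, l4, and_self]
  have hL : ∀ x ∈ L4 G a b c d, ∀ y ∈ P, x * y * x⁻¹ ∈ P := fun x hx y hy =>
    cx.pd.conj_mem fr (fun l hl => mul_mem (mul_mem hx hl) (inv_mem hx)) hy
  have h4 : Nat.card (Om P) ≤ 4 := card_Om_le ss
    (fun z hz => Om_conj (fun x hx => cx.pd.conj_mem fr sL hx)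
      (fun x hx => by rw [si]; exact cx.pd.conj_mem fr sL hx) hz)
    fun y hy z hz y1 z1 e1 e2 => by
      obtain ⟨x, hx, e3⟩ := htr y z ⟨hy.1, y1, hy.2⟩ ⟨hz.1, z1, hz.2⟩
      have e4 : x⁻¹ * y * x = x * y * x⁻¹ := by
        calc x⁻¹ * y * x = (s * x * s⁻¹) * (s * y * s⁻¹) * (s * x * s⁻¹)⁻¹ := by
              rw [sH x hx, e1, inv_inv]
          _ = s * (x * y * x⁻¹) * s⁻¹ := by group
          _ = x * y * x⁻¹ := by rw [e3, e2]
      have e5 : x * x = 1 := by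
        by_contra e6
        refine y1 (fr.fpf (H.mul_mem hx hx) e6 (cx.pd.le hy.1) ?_)
        calc x * x * y = x * (x * y * x⁻¹) * x := by group
          _ = y * (x * x) := by rw [← e4]; group
      have e7 : orderOf x = 1 := Nat.Coprime.eq_one_of_dvd
        (Nat.Coprime.coprime_dvd_left (orderOf_dvd_of_pow_eq_one (by rw [sq, e5]))
          (Nat.coprime_two_left.2 cx.odd)) (orderOf_dvd_natCard H hx)
      rw [← e3, orderOf_eq_one_iff.1 e7]; group
  have h6 := cx.cd.md (Om P) (fun z hz => cx.pd.le hz.1) fun x hx z hz =>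
    Om_conj (hL x (fr.Hle hx)) (hL _ (inv_mem (fr.Hle hx))) hz
  have h7 := (one_lt_card_iff_ne_bot _).2 (Om_ne cx.pd.pg cx.pd.ne)
  have h8 := (one_lt_card_iff_ne_bot _).2 fr.Hne
  have h9 := Nat.le_of_dvd (by omega) h6
  obtain ⟨m, hm⟩ := cx.odd
  omega

end H59.FBAL2b
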