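import Cfsg.Agent.H38.Fong
import Cfsg.Agent.H32.Cover
import Cfsg.Agent.H28.CharBasis
import Cfsg.Agent.H28.CharCenter

/-! Blocks of `p`-solvable groups: the number of characters, reduced to the class number bound. -/

set_option autoImplicit false

namespace H59.Kgv

open Cfsg H28 H32 H38

universe u

/-- The number of characters over an invariant character is at most the class number of the
quotient. -/
theorem card_over_le {G : Type u} [Group G] [Finite G] (N : Subgroup G) [N.Normal] [Fintype N]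
    {θ : N → ℂ} (hθ : IsIrrCharacter N θ) (hinv : inertia θ = ⊤) (B : Set (IrrCharacter G))
    (hB : ∀ χ ∈ B, classInner (fun n : N => χ.1 n) θ ≠ 0) :
    Nat.card B ≤ Nat.card (ConjClasses (G ⧸ N)) := by
  classical
  obtain ⟨C⟩ := nonempty_cover hθ hinv
  choose β h1 h2 h3 using fun χ : B => C.exists_factor hθ χ.1.2 (hB χ.1 χ.2)
  have hinj : Function.Injective fun χ : B => (⟨β χ, h1 χ⟩ : IrrCharacter C.Γ) := by
    intro χ ψ h
    have h' : β χ = β ψ := congrArg Subtype.val h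
    refine Subtype.ext (Subtype.ext (funext fun g => ?_))
    obtain ⟨γ, rfl⟩ := C.π_surj g
    exact (h3 χ γ).trans (h' ▸ (h3 ψ γ).symm)
  have hli : LinearIndependent ℂ β := linearIndependent_irr.comp _ hinj
  have hth : C.th 1 ≠ 0 := C.th_irr.apply_one_ne_zero
  have hcen : ∀ (χ : B) (a : C.π.ker) (γ : C.Γ), β χ (a * γ) = ((C.lam a : ℂ))⁻¹ * β χ γ := by
    intro χ a γ
    obtain ⟨c, hc⟩ := (h1 χ).center_le_charCenter (C.ker_le_center a.2)
    have e1 := h3 χ (a * 1)
    have e2 := h3 χ 1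
    have ha : C.π a = 1 := a.2
    rw [map_mul, ha, one_mul, e2, C.th_mul, hc 1] at e1
    have hb : β χ 1 ≠ 0 := (h1 χ).apply_one_ne_zero
    have e3 : (c : ℂ) * C.lam a = 1 := by
      have : β χ 1 * C.th 1 * ((c : ℂ) * C.lam a - 1) = 0 := by linear_combination -e1
      exact sub_eq_zero.1 ((mul_eq_zero.1 this).resolve_left (mul_ne_zero hb hth))
    rw [hc γ, eq_inv_of_mul_eq_one_left e3]
  have hs : ∀ c : ConjClasses (G ⧸ N), ∃ γ : C.Γ, ConjClasses.mk ((C.π γ : G) : G ⧸ N) = c := by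
    intro c
    obtain ⟨q, rfl⟩ := ConjClasses.mk_surjective c
    obtain ⟨g, rfl⟩ := QuotientGroup.mk_surjective q
    obtain ⟨γ, rfl⟩ := C.π_surj g
    exact ⟨γ, rfl⟩
  choose s hs using hs
  have key : ∀ γ : C.Γ, ∃ (c : ConjClasses (G ⧸ N)) (t : ℂ), ∀ χ : B, β χ γ = t * β χ (s c) := by
    intro γ
    obtain ⟨y, hy⟩ := isConj_iff.1 (ConjClasses.mk_eq_mk_iff_isConj.1
      (hs (ConjClasses.mk ((C.π γ : G) : G ⧸ N))).symm)
    obtain ⟨g, rfl⟩ := QuotientGroup.mk_surjective y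
    obtain ⟨x, rfl⟩ := C.π_surj g
    set c := ConjClasses.mk ((C.π γ : G) : G ⧸ N)
    have hm : C.π (x * γ * x⁻¹ * (s c)⁻¹) ∈ N := by
      rw [← QuotientGroup.eq_one_iff]
      simp only [map_mul, map_inv, QuotientGroup.mk_mul, QuotientGroup.mk_inv]
      rw [hy, mul_inv_cancel]
    obtain ⟨a, n, e⟩ := C.exists_eq_mul_of_mem hm
    refine ⟨c, ((C.lam a : ℂ))⁻¹, fun χ => ?_⟩
    have e' : x * γ * x⁻¹ = a * (C.ν n * s c) := by rw [← mul_assoc, ← e]; group
    rw [← (h1 χ).isClassFunction γ x, e', hcen, apply_mul_of_mem_charKer (h2 χ ⟨n, rfl⟩)]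
  have := Fintype.ofFinite B
  have := Fintype.ofFinite (ConjClasses (G ⧸ N))
  have hl2 : LinearIndependent ℂ fun (χ : B) (c : ConjClasses (G ⧸ N)) => β χ (s c) := by
    rw [Fintype.linearIndependent_iff] at hli ⊢
    intro g hg
    refine hli g (funext fun γ => ?_)
    obtain ⟨c, t, ht⟩ := key γ
    have h0 := congrFun hg c
    simp only [Finset.sum_apply, Pi.smul_apply, smul_eq_mul, Pi.zero_apply] at h0 ⊢
    calc ∑ χ, g χ * β χ γ = t * ∑ χ, g χ * β χ (s c) := by
          rw [Finset.mul_sum]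
          exact Finset.sum_congr rfl fun χ _ => by rw [ht χ]; ring
      _ = 0 := by rw [h0, mul_zero]
  have h9 := hl2.fintype_card_le_finrank
  rwa [Module.finrank_fintype_fun_eq_card, ← Nat.card_eq_fintype_card,
    ← Nat.card_eq_fintype_card] at h9

/-- The class number bound for `p`-solvable groups with trivial `p'`-core. -/
def St (p : ℕ) [Fact p.Prime] : Prop :=
  ∀ (X : Type u) [Group X] [Finite X], IsPSolvable p X → pPrimeCore p X = ⊥ → ∀ P : Sylow p X,
    Nat.card (ConjClasses X) ≤ Nat.card P ∧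
      ((∃ a ∈ P, ∃ b ∈ P, a * b ≠ b * a) → Nat.card (ConjClasses X) < Nat.card P)

theorem blk {p : ℕ} [Fact p.Prime] (H : St.{u} p) {G : Type u} [Group G] [Finite G]
    (hsolv : IsPSolvable p G) (M : Ideal AlgInt) (hM : IsPModular p M)
    (B : Set (IrrCharacter G)) (hB : IsPBlock M B) (D : Subgroup G)
    (hD : IsDefectGroup p M B D) :
    Nat.card B ≤ Nat.card D ∧ ((∃ a ∈ D, ∃ b ∈ D, a * b ≠ b * a) → Nat.card B < Nat.card D) := by
  have := hM.2.1
  revert D
  refine H38.fong_induction hM (C := fun G _ => IsPSolvable p G)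
    (fun G _ _ T h => H18.isPSolvable_subgroup h T)
    (fun G _ _ h => H38.isPConstrained_of_isPSolvable h)
    (motive := fun G _ B => ∀ D : Subgroup G, IsDefectGroup p M B D →
      Nat.card B ≤ Nat.card D ∧ ((∃ a ∈ D, ∃ b ∈ D, a * b ≠ b * a) → Nat.card B < Nat.card D))
    (fun G _ _ _ θ hG hθ hB P hP => ?_) (fun G _ _ T B' B _ h ih P hP => ?_) hsolv hB
  · have hN := H2.not_dvd_card_pPrimeCore p G
    obtain ⟨S, rfl⟩ := H37.isSylowIn_top_iff.1
      ((H38.isDefectGroup_above_iff hM hN hθ hB).1 hP)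
    have h1 := card_over_le (pPrimeCore p G) θ.2
      (eq_top_iff.2 fun g _ => congrArg Subtype.val (hθ g)) _
      (fun χ hχ => H38.mem_above_singleton.1 hχ)
    have hπ := QuotientGroup.mk'_surjective (pPrimeCore p G)
    obtain ⟨h2, h3⟩ := H (G ⧸ pPrimeCore p G) (H18.isPSolvable_quotient hG _)
      (H2.pPrimeCore_quotient_pPrimeCore p G) (S.mapSurjective hπ)
    have h4 : Nat.card (S.mapSurjective hπ) ≤ Nat.card S :=
      Nat.le_of_dvd Nat.card_pos (Subgroup.card_map_dvd (S : Subgroup G) _)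
    refine ⟨h1.trans (h2.trans h4), fun ⟨a, ha, b, hb, hab⟩ =>
      (h1.trans_lt (h3 ⟨_, ⟨a, ha, rfl⟩, _, ⟨b, hb, rfl⟩, fun e => hab ?_⟩)).trans_le h4⟩
    have hd : Disjoint (S : Subgroup G) (pPrimeCore p G) := by
      obtain ⟨k, hk⟩ := IsPGroup.iff_card.1 S.isPGroup'
      exact disjoint_iff.2 (Subgroup.inf_eq_bot_of_coprime
        (hk ▸ ((H2.coprime_card_pPrimeCore p G).pow_right k).symm))
    have h5 : a * b * (b * a)⁻¹ ∈ pPrimeCore p G := by
      rw [← QuotientGroup.ker_mk' (pPrimeCore p G), MonoidHom.mem_ker, map_mul, map_inv, map_mul,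
        map_mul, e, mul_inv_cancel]
    exact mul_inv_eq_one.1 (Subgroup.disjoint_def.1 hd
      (mul_mem (mul_mem ha hb) (inv_mem (mul_mem hb ha))) h5)
  · obtain ⟨D, hD⟩ := H34.exists_isDefectGroup p h.ind.1
    obtain ⟨x, rfl⟩ := H36.isDefectGroup_exists_conj hM h.ind.2.1 (h.defect D hD) hP
    obtain ⟨e, -⟩ := h.exists_equiv
    have f := (D.equivMapOfInjective T.subtype T.subtype_injective).trans
      ((D.map T.subtype).equivMapOfInjective (MulAut.conj x).toMonoidHom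
        (MulAut.conj x).injective)
    rw [← Nat.card_congr e, ← Nat.card_congr f.toEquiv]
    obtain ⟨i1, i2⟩ := ih D hD
    refine ⟨i1, fun ⟨a, ha, b, hb, hab⟩ => i2 ⟨_, (f.symm ⟨a, ha⟩).2, _, (f.symm ⟨b, hb⟩).2,
      fun e' => hab ?_⟩⟩
    have h6 : f.symm ⟨a, ha⟩ * f.symm ⟨b, hb⟩ = f.symm ⟨b, hb⟩ * f.symm ⟨a, ha⟩ := Subtype.ext e'
    rw [← map_mul, ← map_mul] at h6
    exact congrArg Subtype.val (f.symm.injective h6)

end H59.Kgv
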