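import Cfsg.Agent.H70.R3Spec
import Cfsg.Agent.H56.NR2

/-! Ten conjugacy classes for the four-dimensional case over the field with 19 elements. -/

set_option autoImplicit false

namespace H59.R319

open Cfsg H70.R3 Module Subgroup

universe u

theorem fact19 : Fact (Nat.Prime 19) := ⟨by norm_num⟩

attribute [local instance] fact19

section lin

variable {G V : Type u} [Group G] [AddCommGroup V] [Module (ZMod 19) V] [Finite V]
  (ρ : G →* (V ≃ₗ[ZMod 19] V))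

theorem two_cls (hV : finrank (ZMod 19) V = 4) {v : V} (hv : v ≠ 0) (P : G → Prop)
    (c : Fin 6 → ZMod 19) (hc : Function.Injective c) (h : ∀ i, ∃ g, P g ∧ ρ g v = c i • v) :
    ∃ a b, P a ∧ P b ∧ ¬ IsConj a b := by
  by_contra hn
  push Not at hn
  choose g hP hg using h
  have h1 : ∀ i, ∃ k : G, k * g i * k⁻¹ = g 0 := fun i => isConj_iff.1 (hn _ _ (hP i) (hP 0))
  choose k hk using h1
  have h2 := Module.End.eigenvectors_linearIndependent' (ρ (g 0) : V →ₗ[ZMod 19] V) c hc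
    (fun i => ρ (k i) v) fun i => ⟨Module.End.mem_eigenspace_iff.2 (by
      rw [← hk i]
      change ρ _ (ρ _ v) = _
      rw [← LinearEquiv.mul_apply, ← map_mul, inv_mul_cancel_right, map_mul,
        LinearEquiv.mul_apply, hg, map_smul]), by simpa using hv⟩
  have h3 := h2.fintype_card_le_finrank
  rw [hV, Fintype.card_fin] at h3
  omega

omit [Finite V] in
theorem pow_eig {v : V} {g : G} {c : ZMod 19} (h : ρ g v = c • v) (n : ℕ) :
    ρ (g ^ n) v = c ^ n • v := by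
  induction n with
  | zero => simp
  | succ n ih => rw [pow_succ, map_mul, LinearEquiv.mul_apply, h, map_smul, ih, smul_smul,
      ← pow_succ']

omit [Finite V] in
theorem ord_dvd {v : V} (hv : v ≠ 0) {g : G} {c : ZMod 19} (h : ρ g v = c • v) :
    orderOf c ∣ orderOf g := by
  have h1 := pow_eig ρ h (orderOf g)
  rw [pow_orderOf_eq_one, map_one] at h1
  refine orderOf_dvd_of_pow_eq_one (smul_left_injective (ZMod 19) hv ?_)
  simpa using h1.symm

end lin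

theorem ten {G : Type u} [Group G] [Finite G] (h2 : ∃ g : G, orderOf g = 2)
    (h3 : ∃ g : G, orderOf g = 3) (h4 : ∃ g : G, orderOf g = 4) (h5 : ∃ g : G, orderOf g = 5)
    (h6 : ∃ g : G, orderOf g = 6)
    (hb : ∃ a b : G, (9 ∣ orderOf a ∧ ¬ 2 ∣ orderOf a) ∧ (9 ∣ orderOf b ∧ ¬ 2 ∣ orderOf b) ∧
      ¬ IsConj a b)
    (hc : ∃ a b : G, 18 ∣ orderOf a ∧ 18 ∣ orderOf b ∧ ¬ IsConj a b) : 10 ≤ cls G := by
  obtain ⟨a2, h2⟩ := h2
  obtain ⟨a3, h3⟩ := h3
  obtain ⟨a4, h4⟩ := h4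
  obtain ⟨a5, h5⟩ := h5
  obtain ⟨a6, h6⟩ := h6
  obtain ⟨b1, b2, ⟨k1, k2⟩, ⟨k3, k4⟩, k5⟩ := hb
  obtain ⟨c1, c2, k6, k7, k8⟩ := hc
  have h1 : orderOf (1 : G) = 1 := orderOf_one
  have ho : ∀ a b : G, orderOf a ≠ orderOf b → ¬ IsConj a b := fun a b h e => by
    obtain ⟨c, rfl⟩ := isConj_iff.1 e
    exact h ((MulAut.conj c).orderOf_eq _).symm
  have key : List.Pairwise (fun a b : G => ¬ IsConj a b) [1, a2, a3, a4, a5, a6, b1, b2, c1, c2] := by
    simp only [List.pairwise_cons, List.mem_cons, List.not_mem_nil, or_false, forall_eq_or_imp,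
      forall_eq, List.Pairwise.nil, and_true, false_imp_iff, imp_true_iff]
    refine ⟨⟨?_, ?_, ?_, ?_, ?_, ?_, ?_, ?_, ?_⟩, ⟨?_, ?_, ?_, ?_, ?_, ?_, ?_, ?_⟩,
      ⟨?_, ?_, ?_, ?_, ?_, ?_, ?_⟩, ⟨?_, ?_, ?_, ?_, ?_, ?_⟩, ⟨?_, ?_, ?_, ?_, ?_⟩,
      ⟨?_, ?_, ?_, ?_⟩, ⟨k5, ?_, ?_⟩, ⟨?_, ?_⟩, k8⟩
    all_goals exact ho _ _ (by omega)
  classical
  have hn : (([1, a2, a3, a4, a5, a6, b1, b2, c1, c2] : List G).map ConjClasses.mk).Nodup :=
    List.pairwise_map.2 (key.imp fun h e => h (ConjClasses.mk_eq_mk_iff_isConj.1 e))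
  have := Fintype.ofFinite (ConjClasses G)
  have := hn.length_le_card
  rwa [← Nat.card_eq_fintype_card] at this

theorem o18 (i : Fin 6) : orderOf (![2, 3, 10, 13, 14, 15] i : ZMod 19) = 18 :=
  (orderOf_eq_iff (by norm_num)).2 (by revert i; decide)

theorem o9 (i : Fin 6) : orderOf (![4, 5, 6, 9, 16, 17] i : ZMod 19) = 9 :=
  (orderOf_eq_iff (by norm_num)).2 (by revert i; decide)

theorem p64 (i : Fin 6) (a : ℕ) :
    (![4, 5, 6, 9, 16, 17] i : ZMod 19) ^ 64 ^ a = ![4, 5, 6, 9, 16, 17] i := by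
  have h2 : (![4, 5, 6, 9, 16, 17] i : ZMod 19) ^ 64 = ![4, 5, 6, 9, 16, 17] i := by
    revert i; decide
  induction a with
  | zero => simp
  | succ a ih => rw [pow_succ, pow_mul, ih, h2]

theorem job19 : Job19.{u} := by
  intro G V _ _ _ _ _ _ v hV h19 hv hS _ h160
  letI : Module (ZMod 19) V := AddCommGroup.zmodModule h19
  haveI : SMulCommClass G (ZMod 19) V :=
    ⟨fun g c w => ZMod.map_smul (DistribSMul.toAddMonoidHom V g) c w⟩
  let ρ : G →* (V ≃ₗ[ZMod 19] V) := DistribMulAction.toModuleAut (ZMod 19) V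
  have hρ : Function.Injective ρ := fun a b e =>
    eq_of_smul_eq_smul (α := V) fun w => LinearEquiv.congr_fun e w
  have hd : finrank (ZMod 19) V = 4 := by
    have := Module.natCard_eq_pow_finrank (K := ZMod 19) (V := V)
    rw [hV, Nat.card_zmod] at this
    exact (Nat.pow_right_injective (by norm_num : 2 ≤ 19) this).symm
  have hs : ∀ c : ZMod 19, c ≠ 0 → ∃ g : G, ρ g v = c • v := fun c hc => by
    obtain ⟨g, hg⟩ := hS c.val fun h => hc (by
      rw [← ZMod.natCast_zmod_val c]; exact (ZMod.natCast_eq_zero_iff _ _).2 h)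
    refine ⟨g, hg.trans ?_⟩
    rw [← Nat.cast_smul_eq_nsmul (ZMod 19), ZMod.natCast_zmod_val]
  have hdiv : ∀ (g : G) (n : ℕ), n ∣ orderOf g → ∃ x : G, orderOf x = n := fun g n h =>
    ⟨_, orderOf_pow_orderOf_div (orderOf_pos g).ne' h⟩
  have hc := two_cls ρ hd hv (fun g => 18 ∣ orderOf g) ![2, 3, 10, 13, 14, 15] (by decide) fun i => by
    obtain ⟨g, hg⟩ := hs (![2, 3, 10, 13, 14, 15] i) (by revert i; decide)
    exact ⟨g, o18 i ▸ ord_dvd ρ hv hg, hg⟩
  have hb := two_cls ρ hd hv (fun g => 9 ∣ orderOf g ∧ ¬ 2 ∣ orderOf g) ![4, 5, 6, 9, 16, 17]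
    (by decide) fun i => by
    obtain ⟨g, hg⟩ := hs (![4, 5, 6, 9, 16, 17] i) (by revert i; decide)
    obtain ⟨a, m, hm, e⟩ := Nat.exists_eq_two_pow_mul_odd (orderOf_pos g).ne'
    have h1 : ρ (g ^ 64 ^ a) v = (![4, 5, 6, 9, 16, 17] i : ZMod 19) • v := by
      rw [pow_eig ρ hg, p64]
    refine ⟨_, ⟨o9 i ▸ ord_dvd ρ hv h1, fun h => ?_⟩, h1⟩
    refine hm.not_two_dvd_nat (h.trans (orderOf_dvd_of_pow_eq_one ?_))
    rw [← pow_mul, show 64 = 2 * 32 from rfl, mul_pow, mul_right_comm, ← e, pow_mul,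
      pow_orderOf_eq_one, one_pow]
  obtain ⟨x, -, hx, -⟩ := id hc
  refine ten (hdiv x 2 (dvd_trans (by norm_num) hx)) (hdiv x 3 (dvd_trans (by norm_num) hx)) ?_
    (exists_prime_orderOf_dvd_card' 5 (hp := ⟨by norm_num⟩) (dvd_trans (by norm_num) h160))
    (hdiv x 6 (dvd_trans (by norm_num) hx)) hb hc
  by_contra h4
  obtain ⟨K, hK⟩ := Sylow.exists_subgroup_card_pow_prime (G := G) 2 (n := 5)
    (dvd_trans (by norm_num) h160)
  have h2 : ∀ a : K, orderOf a ∣ 2 := fun a => by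
    have h5 : orderOf a ∣ 32 := by simpa [hK] using orderOf_dvd_natCard a
    have h6 : ¬ 4 ∣ orderOf a := fun h => h4 (hdiv a 4 (by simpa using h))
    have h7 := Nat.le_of_dvd (by norm_num) h5
    generalize orderOf a = n at *
    interval_cases n <;> omega
  have h3 := H56.NR.ub_gl (F := ZMod 19) (by decide) hρ (E := K)
    ⟨⟨⟨fun a b => Commute.of_orderOf_dvd_two h2 a b⟩⟩, fun a ha =>
      congrArg Subtype.val (orderOf_dvd_iff_pow_eq_one.1 (h2 ⟨a, ha⟩))⟩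
  rw [hK, hd] at h3
  omega

end H59.R319
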