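import Cfsg.Agent.H52.RCSpec

/-! Tower RC, jobs DS and V0: descent to a 2-central good element. -/

set_option autoImplicit false

namespace H59.RCDS

open Subgroup H52.RC

universe u

theorem ct_iff {G : Type u} [Group G] {L : Subgroup G} [L.Normal] {g v : G} :
    g ∈ Ct L v ↔ Commute (g : G ⧸ Zc L) (v : G ⧸ Zc L) := by
  rw [mem_Ct, ← QuotientGroup.eq_one_iff, ← commutatorElement_eq_one_iff_commute]
  rfl

theorem jobDS : JobDS.{u} := by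
  intro ka lz G _ _ m L _ st P w hP hw rg hn
  obtain ⟨g, hg, g1, g2, g3⟩ := (ka G).2.2.2.2.2.1 P (P ⊓ Ct L w) hP inf_le_left
    fun e => hn (e ▸ inf_le_right)
  have hc : w ^ 2 ∈ center G := ((lz G m L st).2.2.2 w rg).2.2.2.1
  have hwR : w ∈ P ⊓ Ct L w := ⟨hw, ct_iff.2 (Commute.refl _)⟩
  have h1 := ct_iff.1 ((mem_normalizer_iff.1 g3 w).1 hwR).2
  have h2 := ct_iff.1 g2.2
  have h3 : ¬ Commute (g : G ⧸ Zc L) (w : G ⧸ Zc L) := fun h => g1 ⟨hg, ct_iff.2 h⟩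
  have h4 : (w : G ⧸ Zc L) ^ 2 = 1 := (QuotientGroup.eq_one_iff (w ^ 2)).2 rg.2.2.1
  have h5 : ((g * w * g⁻¹ : G) : G ⧸ Zc L) ^ 2 = 1 := by
    change ((g : G ⧸ Zc L) * w * (g : G ⧸ Zc L)⁻¹) ^ 2 = 1
    rw [conj_pow, h4]; group
  have i4 : (w : G ⧸ Zc L)⁻¹ = w := inv_eq_of_mul_eq_one_right (by rw [← sq, h4])
  have i5 : ((g * w * g⁻¹ : G) : G ⧸ Zc L)⁻¹ = (g * w * g⁻¹ : G) :=
    inv_eq_of_mul_eq_one_right (by rw [← sq, h5])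
  have e1 : ((w⁻¹ * (g * w * g⁻¹) : G) : G ⧸ Zc L) = (w : G ⧸ Zc L) * (g * w * g⁻¹ : G) := by
    rw [QuotientGroup.mk_mul, QuotientGroup.mk_inv, i4]
  refine ⟨g, hg, ⟨L.mul_mem (L.inv_mem rg.1) (‹L.Normal›.conj_mem w rg.1 g), fun h => h3 ?_, ?_,
    w, rg.1, rg.2.2.1, inv_of_sq ?_⟩, ct_iff.2 ?_, lt_of_le_of_ne (fun r hr => ⟨hr.1, ?_⟩)
    fun e => g1 (e ▸ ⟨hg, ct_iff.2 ?_⟩)⟩
  · have h6 := (QuotientGroup.eq_one_iff _).2 h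
    rw [QuotientGroup.mk_mul, QuotientGroup.mk_inv, inv_mul_eq_one] at h6
    exact mul_inv_eq_iff_eq_mul.1 h6.symm
  · rw [← QuotientGroup.eq_one_iff, QuotientGroup.mk_pow, e1, h1.symm.mul_pow, h4, h5, mul_one]
  · rw [conj_pow, mem_center_iff.1 hc g, mul_inv_cancel_right]
  · rw [e1]
    exact (Commute.refl _).mul_left h1
  · refine ct_iff.2 ?_
    rw [e1]
    refine (ct_iff.1 hr.2).mul_right ?_
    have h6 := (ct_iff.1 ((mem_normalizer_iff.1 (inv_mem g3) r).1 hr).2).eq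
    simp only [QuotientGroup.mk_mul, QuotientGroup.mk_inv, inv_inv] at h6 ⊢
    change _ = _
    calc (r : G ⧸ Zc L) * (g * w * (g : G ⧸ Zc L)⁻¹)
        = g * ((g : G ⧸ Zc L)⁻¹ * r * g * w) * (g : G ⧸ Zc L)⁻¹ := by group
      _ = g * w * (g : G ⧸ Zc L)⁻¹ * r := by rw [h6]; group
  · rw [e1, ← h1.eq]
    have h6 := h2.eq
    have h7 := h1.eq
    simp only [QuotientGroup.mk_mul, QuotientGroup.mk_inv, QuotientGroup.mk_pow] at h6 h7 ⊢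
    change _ = _
    calc (g : G ⧸ Zc L) * (g * w * (g : G ⧸ Zc L)⁻¹ * w)
        = ((g : G ⧸ Zc L) ^ 2 * w) * (g : G ⧸ Zc L)⁻¹ * w := by rw [sq]; group
      _ = w * (g * w * (g : G ⧸ Zc L)⁻¹) * g := by rw [h6, sq]; group
      _ = g * w * (g : G ⧸ Zc L)⁻¹ * w * g := by rw [← h7]

theorem jobV0 : JobV0.{u} := by
  intro ka ex ds G _ _ m L _ st
  obtain ⟨-, -, -, -, -, -, k7, k8, k9⟩ := ka G
  obtain ⟨P, -, hP, hc⟩ := k7 ⊤ ⊥ IsPGroup.of_bot bot_le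
  obtain ⟨v0, h0, h1⟩ := (ex G L st.2).2 _
    ((k8 ⊤ P hP).2.1 L (by rw [normalizer_eq_top]) le_top)
  obtain ⟨v, ⟨hv, sg⟩, hm⟩ := (Set.toFinite {v | v ∈ P ∧ SG L v}).exists_maximalFor
    (fun v => P ⊓ Ct L v) _ ⟨v0, h0.1, h1⟩
  have hle : P ≤ Ct L v := by
    by_contra hn
    obtain ⟨g, hg, s1, -, s2⟩ := ds G m L st P v hP.2.1 hv sg.rg hn
    exact s2.not_ge (hm ⟨mul_mem (inv_mem hv) (mul_mem (mul_mem hg hv) (inv_mem hg)), s1⟩ s2.le)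
  refine ⟨v, sg, le_antisymm ?_ ?_⟩
  · obtain ⟨Q, -, hQ, hq⟩ := k7 (Ct L v) ⊥ IsPGroup.of_bot bot_le
    have := (k9 ⊤ Q hQ.2.1 le_top).1
    rwa [hq, Nat.pow_le_pow_iff_right one_lt_two] at this
  · have := (k9 _ P hP.2.1 hle).1
    rwa [hc, Nat.pow_le_pow_iff_right one_lt_two] at this

end H59.RCDS
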